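import Mathlib
import Cfsg.Agent.Lib.Blk.Dec2

/-!
# The Brauer character of a modular representation, through ranks of idempotents
-/

set_option autoImplicit false
set_option linter.unusedSectionVars false

namespace CfsgLib.E83

attribute [local implicit_reducible] CfsgLib.Block.K

open Cfsg CfsgLib.Char CfsgLib.Block MonoidAlgebra CfsgLib.ModRep CfsgLib.Star CfsgLib.Blk Module

section rank

variable {k A V : Type*} [Field k] [Ring A] [Algebra k A] [AddCommGroup V] [Module k V] [FiniteDimensional k V]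

/-- the rank of the image of an element of the algebra -/
noncomputable def rk (φ : A →ₐ[k] Module.End k V) (c : A) : ℕ := finrank k (LinearMap.range (φ c))

theorem rank_add_idem {P Q : Module.End k V} (hP : P * P = P) (hQ : Q * Q = Q) (h1 : P * Q = 0) (h2 : Q * P = 0) :
    finrank k (LinearMap.range (P + Q)) = finrank k (LinearMap.range P) + finrank k (LinearMap.range Q) := by
  have e1 : LinearMap.range (P + Q) = LinearMap.range P ⊔ LinearMap.range Q := by
    refine le_antisymm ?_ (sup_le ?_ ?_)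
    · rintro _ ⟨v, rfl⟩
      exact Submodule.add_mem_sup ⟨v, rfl⟩ ⟨v, rfl⟩
    · rintro _ ⟨v, rfl⟩
      refine ⟨P v, ?_⟩
      have : (P + Q) * P = P := by rw [add_mul, hP, h2, add_zero]
      exact LinearMap.congr_fun this v
    · rintro _ ⟨v, rfl⟩
      refine ⟨Q v, ?_⟩
      have : (P + Q) * Q = Q := by rw [add_mul, hQ, h1, zero_add]
      exact LinearMap.congr_fun this v
  have e2 : LinearMap.range P ⊓ LinearMap.range Q = ⊥ := by
    rw [eq_bot_iff]
    rintro _ ⟨⟨v, rfl⟩, ⟨w, hw⟩⟩
    have h3 : P (P v) = P v := LinearMap.congr_fun hP v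
    have h4 : P (Q w) = 0 := LinearMap.congr_fun h1 w
    rw [Submodule.mem_bot, ← h3, ← hw, h4]
  rw [← Submodule.finrank_sup_add_finrank_inf_eq, e2, e1, finrank_bot, add_zero]

theorem rank_mul_le (P Q R : Module.End k V) :
    finrank k (LinearMap.range (P * Q * R)) ≤ finrank k (LinearMap.range Q) := by
  have h1 : LinearMap.range (P * Q * R) ≤ (LinearMap.range Q).map P := by
    rintro _ ⟨v, rfl⟩
    exact ⟨Q (R v), ⟨_, rfl⟩, rfl⟩
  exact (Submodule.finrank_mono h1).trans (Submodule.finrank_map_le _ _)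

theorem rk_le_of_unit (φ : A →ₐ[k] Module.End k V) {c d a b u : A} (hu : IsUnit u) (h : c * u = a * d * b) :
    rk φ c ≤ rk φ d := by
  obtain ⟨u, rfl⟩ := hu
  have : c = a * d * (b * ↑u⁻¹) := by rw [← mul_assoc, ← h, Units.mul_inv_cancel_right]
  rw [rk, this, map_mul, map_mul]
  exact rank_mul_le _ _ _

theorem rk_le (φ : A →ₐ[k] Module.End k V) (c : A) : rk φ c ≤ finrank k V := Submodule.finrank_le _

variable (W : Wedd k A)

theorem rk_le_of_equiv (φ : A →ₐ[k] Module.End k V) {c d x y : A} (hc : IsIdempotentElem c)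
    (hxy : W.π (x * y) = W.π c) (hyx : W.π (y * x) = W.π d) : rk φ c ≤ rk φ d := by
  refine rk_le_of_unit φ (u := c * x * d * (y * c) + (1 - c)) (a := c * x) (b := y * c) (wedd_isUnit W ?_) ?_
  · have hc' : W.π c * W.π c = W.π c := by rw [← map_mul, hc]
    rw [map_mul] at hxy hyx
    simp only [map_add, map_mul, map_sub, map_one]
    rw [← hyx]
    have : W.π c * W.π x * (W.π y * W.π x) * (W.π y * W.π c) = W.π c := by
      calc _ = W.π c * (W.π x * W.π y) * (W.π x * W.π y) * W.π c := by simp only [mul_assoc]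
        _ = _ := by rw [hxy, hc', hc', hc']
    rw [this]; abel
  · rw [mul_add, mul_sub, mul_one, hc.eq, sub_self, add_zero, ← mul_assoc, ← mul_assoc, ← mul_assoc, ← mul_assoc,
      hc.eq, mul_assoc _ y]

/-- the simple modules -/
noncomputable def sm (a : Fin W.n) : A →ₐ[k] Module.End k (Fin (W.d a) → k) :=
  (Matrix.toLinAlgEquiv' : Matrix (Fin (W.d a)) (Fin (W.d a)) k ≃ₐ[k] _).toAlgHom.comp
    ((Pi.evalAlgHom k (fun i => Matrix (Fin (W.d i)) (Fin (W.d i)) k) a).comp W.π)

theorem sm_apply (a : Fin W.n) (c : A) (v : Fin (W.d a) → k) : sm W a c v = (W.π c a).mulVec v := rfl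

theorem sm_surj (a : Fin W.n) : Function.Surjective (sm W a) := fun f => by
  obtain ⟨c, hc⟩ := W.exists_single a (Matrix.toLinAlgEquiv'.symm f)
  refine ⟨c, ?_⟩
  change Matrix.toLinAlgEquiv' (W.π c a) = f
  rw [hc, Pi.single_eq_same, AlgEquiv.apply_symm_apply]

theorem rk_sm_single {c : A} {a : Fin W.n} {v w : Fin (W.d a) → k} (h : w ⬝ᵥ v = 1)
    (hπ : W.π c = Pi.single a (Matrix.vecMulVec v w)) (b : Fin W.n) : rk (sm W b) c = if b = a then 1 else 0 := by
  split_ifs with hb
  · subst hb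
    have hv : v ≠ 0 := by rintro rfl; simp at h
    have : LinearMap.range (sm W b c) = Submodule.span k {v} := by
      refine le_antisymm ?_ ?_
      · rintro _ ⟨u, rfl⟩
        rw [sm_apply, hπ, Pi.single_eq_same, Matrix.vecMulVec_mulVec, op_smul_eq_smul]
        exact Submodule.smul_mem _ _ (Submodule.mem_span_singleton_self v)
      · rw [Submodule.span_singleton_le_iff_mem]
        refine ⟨v, ?_⟩
        rw [sm_apply, hπ, Pi.single_eq_same, Matrix.vecMulVec_mulVec, h]; simp
    rw [rk, this, finrank_span_singleton hv]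
  · have : sm W b c = 0 := LinearMap.ext fun u => by
      rw [sm_apply, hπ, Pi.single_eq_of_ne hb]; simp
    rw [rk, this, LinearMap.range_zero, finrank_bot]

theorem rk_add (φ : A →ₐ[k] Module.End k V) {c d : A} (hc : IsIdempotentElem c) (hd : IsIdempotentElem d)
    (h1 : c * d = 0) (h2 : d * c = 0) : rk φ (c + d) = rk φ c + rk φ d := by
  rw [rk, map_add]
  exact rank_add_idem (by rw [← map_mul, hc]) (by rw [← map_mul, hd]) (by rw [← map_mul, h1, map_zero])
    (by rw [← map_mul, h2, map_zero])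

theorem rk_zero (φ : A →ₐ[k] Module.End k V) : rk φ 0 = 0 := by
  rw [rk, map_zero, LinearMap.range_zero, finrank_bot]

theorem idem_sum [FiniteDimensional k A] {B : Type*} [AddCommMonoid B] (t : A → B) (h0 : t 0 = 0)
    (hadd : ∀ c d, IsIdempotentElem c → IsIdempotentElem d → c * d = 0 → d * c = 0 → t (c + d) = t c + t d)
    (heq : ∀ c d x y, IsIdempotentElem c → IsIdempotentElem d → W.π (x * y) = W.π c → W.π (y * x) = W.π d →
      t c = t d) {c : A} (hc : IsIdempotentElem c) : t c = ∑ a, rk (sm W a) c • t (jj W a) := by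
  refine idem_induction (T := (⊤ : Subalgebra k A)) (P := fun c => t c = ∑ a, rk (sm W a) c • t (jj W a))
    ?_ ?_ ?_ trivial hc
  · simp [h0, rk_zero]
  · rintro c - d - hc hd hcd hdc h1 h2
    rw [hadd c d hc hd hcd hdc, h1, h2, ← Finset.sum_add_distrib]
    exact Finset.sum_congr rfl fun a _ => by rw [rk_add _ hc hd hcd hdc, add_smul]
  · intro c hc
    obtain ⟨a, v, w, h, hπ⟩ := Prm.exists_vec W hc
    obtain ⟨x, y, h1, h2⟩ := exists_equiv_of_vec W a h
    rw [heq c (jj W a) x y hc.idem (jj_idem W a) (h1.trans hπ.symm) (h2.trans (pi_jj W a).symm)]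
    simp [rk_sm_single W h hπ]

theorem rk_eq_sum [FiniteDimensional k A] (φ : A →ₐ[k] Module.End k V) {c : A} (hc : IsIdempotentElem c) :
    rk φ c = ∑ a, rk (sm W a) c * rk φ (jj W a) :=
  idem_sum W (rk φ) (rk_zero φ) (fun _ _ => rk_add φ)
    (fun _ _ _ _ hc hd h1 h2 => le_antisymm (rk_le_of_equiv W φ hc h1 h2) (rk_le_of_equiv W φ hd h2 h1)) hc

end rank

section fix

variable {k G V : Type*} [Field k] [Group G] [AddCommGroup V] [Module k V]

/-- the vectors fixed by a set of group elements -/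
def fix (ρ : Representation k G V) (S : Set G) : Submodule k V where
  carrier := {v | ∀ g ∈ S, ρ g v = v}
  add_mem' ha hb g hg := by rw [map_add, ha g hg, hb g hg]
  zero_mem' g _ := map_zero _
  smul_mem' c v hv g hg := by rw [map_smul, hv g hg]

theorem mem_fix {ρ : Representation k G V} {S : Set G} {v : V} : v ∈ fix ρ S ↔ ∀ g ∈ S, ρ g v = v := Iff.rfl

theorem mem_fix_single {ρ : Representation k G V} {g : G} {v : V} : v ∈ fix ρ {g} ↔ ρ g v = v := by
  simp [mem_fix]

theorem fix_closure (ρ : Representation k G V) (S : Set G) : fix ρ (Subgroup.closure S) = fix ρ S := by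
  ext v
  refine ⟨fun h g hg => h g (Subgroup.subset_closure hg), fun h g hg => ?_⟩
  induction hg using Subgroup.closure_induction with
  | mem x hx => exact h x hx
  | one => simp
  | mul x y _ _ hx hy => rw [map_mul, Module.End.mul_apply, hy, hx]
  | inv x _ hx =>
    conv_lhs => rw [← hx]
    rw [← Module.End.mul_apply, ← map_mul, inv_mul_cancel, map_one, Module.End.one_apply]

theorem fix_anti (ρ : Representation k G V) {S T : Set G} (h : S ⊆ Subgroup.closure T) : fix ρ T ≤ fix ρ S := by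
  rw [← fix_closure ρ T]
  exact fun v hv g hg => hv g (h hg)

theorem fix_congr (ρ : Representation k G V) {S T : Set G} (h : S ⊆ Subgroup.closure T)
    (h' : T ⊆ Subgroup.closure S) : fix ρ S = fix ρ T := le_antisymm (fix_anti ρ h') (fix_anti ρ h)

theorem fix_comp {H : Type*} [Group H] (ρ : Representation k G V) (φ : H →* G) (S : Set H) :
    fix (ρ.comp φ : Representation k H V) S = fix ρ (φ '' S) := by
  ext v
  simp [mem_fix]

/-- the dimension of the fixed space of a set -/
noncomputable def fxS (ρ : Representation k G V) (S : Set G) : ℕ := finrank k (fix ρ S)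

/-- the dimension of the fixed space of an element -/
noncomputable def fx (ρ : Representation k G V) (g : G) : ℕ := fxS ρ {g}

theorem fx_comp {H : Type*} [Group H] (ρ : Representation k G V) (φ : H →* G) (g : H) :
    fx (ρ.comp φ : Representation k H V) g = fx ρ (φ g) := by
  rw [fx, fxS, fix_comp, Set.image_singleton]; rfl

theorem fxS_comp {H : Type*} [Group H] (ρ : Representation k G V) (φ : H →* G) (S : Set H) :
    fxS (ρ.comp φ : Representation k H V) S = fxS ρ (φ '' S) := by
  rw [fxS, fix_comp]; rfl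

theorem fx_conj (ρ : Representation k G V) (g x : G) : fx ρ (x * g * x⁻¹) = fx ρ g := by
  let e : V ≃ₗ[k] V := LinearEquiv.ofLinearMap (ρ x) (ρ x⁻¹) (by rw [← Module.End.mul_eq_comp, ← map_mul]; simp; rfl)
    (by rw [← Module.End.mul_eq_comp, ← map_mul]; simp; rfl)
  have : fix ρ {x * g * x⁻¹} = (fix ρ {g}).map e.toLinearMap := by
    ext v
    rw [Submodule.mem_map_equiv, mem_fix_single, mem_fix_single]
    change _ ↔ ρ g (ρ x⁻¹ v) = ρ x⁻¹ v
    rw [map_mul, map_mul, Module.End.mul_apply, Module.End.mul_apply]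
    refine ⟨fun h => ?_, fun h => ?_⟩
    · conv_rhs => rw [← h]
      rw [← Module.End.mul_apply (ρ x⁻¹), ← map_mul, inv_mul_cancel, map_one, Module.End.one_apply]
    · rw [h, ← Module.End.mul_apply, ← map_mul, mul_inv_cancel, map_one, Module.End.one_apply]
  rw [fx, fxS, this, LinearEquiv.finrank_map_eq]; rfl

theorem fx_of_isConj (ρ : Representation k G V) {g h : G} (e : IsConj g h) : fx ρ g = fx ρ h := by
  obtain ⟨x, rfl⟩ := isConj_iff.1 e
  rw [fx_conj]

theorem fx_one (ρ : Representation k G V) : fx ρ 1 = finrank k V := by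
  have : fix ρ {1} = ⊤ := eq_top_iff.2 fun v _ => mem_fix_single.2 (by simp)
  rw [fx, fxS, this, finrank_top]

variable [FiniteDimensional k V]

theorem fxS_anti (ρ : Representation k G V) {S T : Set G} (h : S ⊆ Subgroup.closure T) : fxS ρ T ≤ fxS ρ S :=
  Submodule.finrank_mono (fix_anti ρ h)

theorem fx_le_pow (ρ : Representation k G V) (g : G) (n : ℕ) : fx ρ g ≤ fx ρ (g ^ n) :=
  fxS_anti ρ (Set.singleton_subset_iff.2 (pow_mem (Subgroup.subset_closure (Set.mem_singleton g)) n))

theorem eq_one_of_fx (ρ : Representation k G V) {g : G} (h : fx ρ g = finrank k V) : ρ g = 1 := by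
  have := Submodule.eq_top_of_finrank_eq h
  ext v
  exact mem_fix_single.1 (this ▸ Submodule.mem_top)

/-- the dihedral bound -/
theorem fx_mul_ge (ρ : Representation k G V) (s t : G) : fx ρ s + fx ρ t ≤ finrank k V + fx ρ (s * t) := by
  have h1 := Submodule.finrank_sup_add_finrank_inf_eq (fix ρ {s}) (fix ρ {t})
  have h2 := Submodule.finrank_le (fix ρ {s} ⊔ fix ρ {t})
  have h3 : finrank k ↥(fix ρ {s} ⊓ fix ρ {t}) ≤ fx ρ (s * t) := Submodule.finrank_mono fun v hv => by
    rw [mem_fix_single, map_mul, Module.End.mul_apply, mem_fix_single.1 hv.2, mem_fix_single.1 hv.1]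
  change finrank k ↥(fix ρ {s}) + finrank k ↥(fix ρ {t}) ≤ _
  omega

/-- a family of group elements permuted by left multiplication -/
def Fam {ι : Type*} (f : ι → G) (S : Set G) : Prop :=
  (∀ s ∈ S, ∃ σ : Equiv.Perm ι, ∀ i, s * f i = f (σ i)) ∧ ∀ i, f i ∈ Subgroup.closure S

theorem Fam.perm {ι : Type*} {f : ι → G} {S : Set G} (h : Fam f S) {g : G} (hg : g ∈ Subgroup.closure S) :
    ∃ σ : Equiv.Perm ι, ∀ i, g * f i = f (σ i) := by
  induction hg using Subgroup.closure_induction with
  | mem x hx => exact h.1 x hx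
  | one => exact ⟨1, fun i => by simp⟩
  | mul x y _ _ hx hy =>
    obtain ⟨σ, hσ⟩ := hx
    obtain ⟨τ, hτ⟩ := hy
    exact ⟨σ * τ, fun i => by rw [mul_assoc, hτ, hσ]; rfl⟩
  | inv x _ hx =>
    obtain ⟨σ, hσ⟩ := hx
    exact ⟨σ⁻¹, fun i => by rw [inv_mul_eq_iff_eq_mul, hσ]; simp⟩

theorem fam_hom {Q : Type*} [Group Q] (φ : Q →* G) : Fam φ (Set.range φ) :=
  ⟨by rintro _ ⟨q, rfl⟩; exact ⟨Equiv.mulLeft q, fun i => (map_mul φ q i).symm⟩,
    fun i => Subgroup.subset_closure ⟨i, rfl⟩⟩

theorem fam_pow {g : G} {m : ℕ} [NeZero m] (h : g ^ m = 1) : Fam (fun i : Fin m => g ^ (i : ℕ)) {g} := by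
  refine ⟨?_, fun i => pow_mem (Subgroup.subset_closure (Set.mem_singleton g)) _⟩
  rintro _ rfl
  refine ⟨Equiv.addRight 1, fun i => ?_⟩
  simp only [Equiv.coe_addRight, Fin.val_add]
  rw [← pow_succ', ← pow_eq_pow_mod _ h, Fin.val_one', pow_add _ _ (1 % m), ← pow_eq_pow_mod _ h, pow_succ, pow_one]

/-- the averaging element of a family -/
noncomputable def avg (R : Type*) [Field R] {ι : Type*} [Fintype ι] (f : ι → G) : R[G] :=
  (Fintype.card ι : R)⁻¹ • ∑ i, single (f i) (1 : R)

theorem Fam.single_mul {R : Type*} [Field R] {ι : Type*} [Fintype ι] {f : ι → G} {S : Set G} (h : Fam f S) {g : G}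
    (hg : g ∈ Subgroup.closure S) : single g (1 : R) * avg R f = avg R f := by
  obtain ⟨σ, hσ⟩ := h.perm hg
  rw [avg, mul_smul_comm, Finset.mul_sum]
  congr 1
  simp only [single_mul_single, one_mul, hσ]
  exact Equiv.sum_comp σ fun i => single (f i) (1 : R)

theorem Fam.idem {R : Type*} [Field R] {ι : Type*} [Fintype ι] {f : ι → G} {S : Set G} (h : Fam f S)
    (hc : (Fintype.card ι : R) ≠ 0) : IsIdempotentElem (avg R f) := by
  change _ * _ = _
  conv_lhs => lhs; rw [avg]
  rw [smul_mul_assoc, Finset.sum_mul, Finset.sum_congr rfl fun i _ => h.single_mul (h.2 i), Finset.sum_const,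
    Finset.card_univ, ← Nat.cast_smul_eq_nsmul R, smul_smul, inv_mul_cancel₀ hc, one_smul]

theorem Fam.rk {ι : Type*} [Fintype ι] {f : ι → G} {S : Set G} (h : Fam f S) (hc : (Fintype.card ι : k) ≠ 0)
    (ρ : Representation k G V) : rk ρ.asAlgebraHom (avg k f) = fxS ρ S := by
  have : LinearMap.range (ρ.asAlgebraHom (avg k f)) = fix ρ S := by
    refine le_antisymm ?_ fun v hv => ⟨v, ?_⟩
    · rintro _ ⟨v, rfl⟩ g hg
      rw [← ρ.asAlgebraHom_single_one, ← Module.End.mul_apply, ← map_mul, h.single_mul (Subgroup.subset_closure hg)]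
    · rw [← fix_closure] at hv
      simp only [avg, map_smul, map_sum, Representation.asAlgebraHom_single_one, LinearMap.smul_apply,
        LinearMap.sum_apply]
      rw [Finset.sum_congr rfl fun i _ => hv _ (h.2 i), Finset.sum_const, Finset.card_univ,
        ← Nat.cast_smul_eq_nsmul k, smul_smul, inv_mul_cancel₀ hc, one_smul]
  rw [E83.rk, this, fxS]

end fix

section brauer

variable {G : Type*} [Group G] [Fintype G] {p : ℕ} {M : Ideal AlgInt} {hM : IsPModular p M}
  {V : Type*} [AddCommGroup V] [Module (K hM) V] [FiniteDimensional (K hM) V]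

/-- `β` is a generalized character computing the ranks of all idempotents -/
def Brauer (ρ : Representation (K hM) G V) (β : G → ℂ) : Prop :=
  IsGeneralizedCharacter G β ∧ ∀ e ∈ OG hM G, IsIdempotentElem e → chiA β e = rk ρ.asAlgebraHom (redA hM e)

theorem exists_brauer (ρ : Representation (K hM) G V) : ∃ β, Brauer ρ β := by
  obtain ⟨W⟩ := nonempty_wedd (K hM) (K hM)[G]
  choose θ h1 h2 using exists_genChar_reg_eq_ibr W
  have h3 : ∀ a b, cv hM (θ a) (jj W b) = if b = a then 1 else 0 := fun a b => by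
    rw [cv_jj W (isClassFunction_of_isGenChar (h1 a)), ← classInner_pc _ (h1 a)]
    change classInner (Proj W b) _ = _
    rw [← reg_Proj, classInner_reg_left, h2, classInner_Proj_ibr]
  refine ⟨∑ a, (rk ρ.asAlgebraHom (jj W a) : ℂ) • θ a, ?_, fun e he he' => ?_⟩
  · exact isGenChar_sum _ fun a _ => by
      rw [Nat.cast_smul_eq_nsmul]; exact isGenChar_nsmul _ (h1 a)
  · have hc : IsIdempotentElem (redA hM e) := by
      change _ * _ = _
      rw [← redA_mul hM he he, he'.eq]
    rw [chiA_sum_left, rk_eq_sum W _ hc, Nat.cast_sum]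
    refine Finset.sum_congr rfl fun a _ => ?_
    have hcl := isClassFunction_of_isGenChar (h1 a)
    rw [chiA_smul_left, ← cv_eq hcl he he', idem_sum W (cv hM (θ a)) (cv_zero hcl) (fun _ _ => cv_add hcl)
      (fun _ _ _ _ => cv_eq_of_equiv W hcl) hc]
    simp [h3, mul_comm]

theorem cast_ne_zero_K {m : ℕ} (hm : ¬ p ∣ m) : (m : K hM) ≠ 0 := by
  rwa [Ne, CharP.cast_eq_zero_iff (K hM) p]

variable {ρ : Representation (K hM) G V} {β : G → ℂ}

theorem Brauer.isClass (h : Brauer ρ β) : IsClassFunction G β := isClassFunction_of_isGenChar h.1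

theorem Brauer.sum_fam (h : Brauer ρ β) {ι : Type*} [Fintype ι] {f : ι → G} {S : Set G} (hf : Fam f S)
    (hp : ¬ p ∣ Fintype.card ι) : ∑ i, β (f i) = Fintype.card ι * fxS ρ S := by
  have h0 : (Fintype.card ι : ℂ) ≠ 0 := Nat.cast_ne_zero.2 fun e => hp (e ▸ dvd_zero p)
  have h1 : ∀ i, single (f i) (1 : ℂ) ∈ OG hM G := fun i g => by
    classical
    rw [coeff_single, Finsupp.single_apply]
    split_ifs
    exacts [lr_one hM, lr_zero hM]
  have h2 : ∑ i, single (f i) (1 : ℂ) ∈ OG hM G := sum_mem fun i _ => h1 i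
  have h3 : redA hM (avg ℂ f) = avg (K hM) f := by
    rw [avg, redA_smul hM (lr_inv_nat hM hp) h2, redA_sum hM fun i _ => h1 i,
      red_inv hM (lr_natCast hM _) (by rwa [li_natCast_iff hM]), red_natCast]
    simp only [redA_single, red_one]
    rfl
  have := h.2 _ (smul_mem_OG hM (lr_inv_nat hM hp) h2) (hf.idem h0)
  change chiA β (avg ℂ f) = rk _ (redA hM (avg ℂ f)) at this
  rw [h3, hf.rk (cast_ne_zero_K hp), avg, map_smul, map_sum] at this
  simp only [chiA_single, one_mul, smul_eq_mul] at this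
  rw [← this, mul_inv_cancel_left₀ h0]

theorem Brauer.sum_hom (h : Brauer ρ β) {Q : Type*} [Group Q] [Fintype Q] (φ : Q →* G)
    (hp : ¬ p ∣ Fintype.card Q) : ∑ q, β (φ q) = Fintype.card Q * fxS ρ (Set.range φ) :=
  h.sum_fam (fam_hom φ) hp

theorem Brauer.sum_pow (h : Brauer ρ β) {g : G} {m : ℕ} (hp : ¬ p ∣ m) (hg : g ^ m = 1) :
    ∑ i ∈ Finset.range m, β (g ^ i) = m * fx ρ g := by
  have : NeZero m := ⟨fun e => hp (e ▸ dvd_zero p)⟩
  have := h.sum_fam (fam_pow hg) (by rwa [Fintype.card_fin])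
  rwa [Fintype.card_fin, ← Finset.sum_range fun i => β (g ^ i)] at this

theorem Brauer.one (h : Brauer ρ β) : β 1 = finrank (K hM) V := by
  have := h.sum_pow (g := 1) (m := 1) (fun e => hM.1.one_lt.ne' (Nat.dvd_one.1 e)) (one_pow 1)
  simpa [fx_one] using this

end brauer

end CfsgLib.E83
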