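import Mathlib
import Cfsg.Agent.Lib.E83.Data

/-!
# Codes for matrices over the fields with three and nine elements, and certificates for sums over small subgroups
-/

set_option autoImplicit false
set_option linter.unusedSectionVars false

namespace CfsgLib.E83

attribute [local implicit_reducible] CfsgLib.Block.K

open Cfsg CfsgLib.Block CfsgLib.Char Module

/-- a digit in base sixteen -/
def nb4 (a t : ℕ) : ℕ := Nat.mod (Nat.shiftRight a (Nat.mul 4 t)) 16

/-- packing in base sixteen -/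
noncomputable def pk (f : ℕ → ℕ) (n : ℕ) : ℕ := ssum (fun t => Nat.shiftLeft (f t) (Nat.mul 4 t)) n

theorem pk_succ (f : ℕ → ℕ) (n : ℕ) : pk f (n + 1) = pk f n + f n * 2 ^ (4 * n) := by
  rw [← Nat.shiftLeft_eq]; rfl

theorem pk_lt {f : ℕ → ℕ} (h : ∀ r, f r < 16) (n : ℕ) : pk f n < 2 ^ (4 * n) := by
  induction n with
  | zero => exact Nat.one_pos
  | succ n ih =>
    have h2 := h n
    rw [pk_succ, mul_add, pow_add]
    generalize 2 ^ (4 * n) = P at *
    have h3 : f n * P ≤ 15 * P := Nat.mul_le_mul_right _ (by omega)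
    omega

theorem nb4_pk {f : ℕ → ℕ} (h : ∀ r, f r < 16) {n r : ℕ} (hr : r < n) : nb4 (pk f n) r = f r := by
  change pk f n >>> (4 * r) % 16 = _
  rw [Nat.shiftRight_eq_div_pow]
  induction n with
  | zero => omega
  | succ n ih =>
    rw [pk_succ]
    rcases Nat.lt_or_ge r n with h1 | h1
    · obtain ⟨c, rfl⟩ := Nat.exists_eq_add_of_lt h1
      rw [← ih h1, show 4 * (r + c + 1) = 4 * c + 4 + 4 * r by ring, pow_add, pow_add,
        ← mul_assoc, Nat.add_mul_div_right _ _ (by positivity), ← mul_assoc]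
      exact Nat.add_mul_mod_self_right _ _ _
    · obtain rfl : r = n := by omega
      rw [Nat.add_mul_div_right _ _ (by positivity), Nat.div_eq_of_lt (pk_lt h r), zero_add, Nat.mod_eq_of_lt (h r)]

theorem nb4_lt (a t : ℕ) : nb4 a t < 16 := Nat.mod_lt _ (by decide)

/-- the product of two entries -/
def term (κ u v : ℕ) : ℕ :=
  Nat.add (Nat.add (Nat.mul (Nat.mod u 4) (Nat.mod v 4)) (Nat.mul κ (Nat.mul (Nat.div u 4) (Nat.div v 4))))
    (Nat.mul 256 (Nat.add (Nat.mul (Nat.mod u 4) (Nat.div v 4)) (Nat.mul (Nat.div u 4) (Nat.mod v 4))))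

/-- the reduction of a sum of products -/
def red3 (s : ℕ) : ℕ := Nat.add (Nat.mod (Nat.mod s 256) 3) (Nat.mul 4 (Nat.mod (Nat.div s 256) 3))

theorem red3_lt (s : ℕ) : red3 s < 16 := by
  change s % 256 % 3 + 4 * (s / 256 % 3) < 16
  omega

/-- the product of two matrices -/
noncomputable def mulc (n κ a b : ℕ) : ℕ := force a fun a => force b fun b =>
  pk (fun t => force (Nat.mul n (Nat.div t n)) fun i => force (Nat.mod t n) fun j => force (ssum (fun k =>
    force (nb4 a (Nat.add i k)) fun u => force (nb4 b (Nat.add (Nat.mul n k) j)) (term κ u)) n) red3) (Nat.mul n n)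

/-- a scalar matrix -/
noncomputable def scc (n u : ℕ) : ℕ := pk (fun t => if t / n = t % n then u % 16 else 0) (n * n)

/-- a power -/
noncomputable def pwc (n κ a k : ℕ) : ℕ := Nat.rec (scc n 1) (fun _ b => mulc n κ a b) k

section dec

variable {R : Type*} [CommRing R] [CharP R 3] (ι : R)

/-- the value of an entry -/
def dec (u : ℕ) : R := (u % 4 : ℕ) + (u / 4 : ℕ) * ι

variable {I : Type*} [Fintype I] [DecidableEq I] {n : ℕ} (e : I ≃ Fin n)

/-- the matrix with a given code -/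
def D (a : ℕ) : Matrix I I R := Matrix.of fun i j => dec ι (nb4 a (n * e i + e j))

theorem idx_lt (i j : Fin n) : n * i + j < n * n := by
  have := i.2; have := j.2; nlinarith

theorem D_pk {f : ℕ → ℕ} (h : ∀ r, f r < 16) (i j : I) : D ι e (pk f (n * n)) i j = dec ι (f (n * e i + e j)) := by
  rw [D, Matrix.of_apply, nb4_pk h (idx_lt _ _)]

theorem idx_div (i j : Fin n) : (n * i + j) / n = i := by
  rw [Nat.mul_add_div (Nat.zero_lt_of_lt i.2), Nat.div_eq_of_lt j.2, add_zero]

theorem idx_mod (i j : Fin n) : (n * i + j) % n = j := by rw [Nat.mul_add_mod, Nat.mod_eq_of_lt j.2]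

theorem D_scc {u : ℕ} (hu : u < 16) : D ι e (scc n u) = dec ι u • (1 : Matrix I I R) := by
  ext i j
  rw [scc, D_pk _ _ fun r => by split_ifs <;> omega, idx_div, idx_mod, Matrix.smul_apply, Matrix.one_apply,
    Nat.mod_eq_of_lt hu]
  by_cases h : i = j
  · simp [h]
  · rw [if_neg h, if_neg fun h' => h (e.injective (Fin.ext h'))]; simp [dec]

theorem D_one : D ι e (scc n 1) = 1 := by rw [D_scc _ _ (by decide)]; simp [dec]

variable {ι} {κ : ℕ}

theorem dec_red (hι : ι * ι = κ) (hκ : κ ≤ 2) (hn : Fintype.card I ≤ 6) {u v : I → ℕ} (hu : ∀ k, u k < 16)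
    (hv : ∀ k, v k < 16) : dec ι (red3 (∑ k, term κ (u k) (v k))) = ∑ k, dec ι (u k) * dec ι (v k) := by
  have h1 : ∑ k, term κ (u k) (v k) = ∑ k, (u k % 4 * (v k % 4) + κ * (u k / 4 * (v k / 4))) +
      256 * ∑ k, (u k % 4 * (v k / 4) + u k / 4 * (v k % 4)) := by
    rw [Finset.mul_sum, ← Finset.sum_add_distrib]; rfl
  have h2 : ∑ k, (u k % 4 * (v k % 4) + κ * (u k / 4 * (v k / 4))) ≤ Fintype.card I • 27 :=
    Finset.sum_le_card_nsmul _ _ _ fun k _ => by
      have := hu k; have := hv k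
      have a : u k % 4 * (v k % 4) ≤ 3 * 3 := Nat.mul_le_mul (by omega) (by omega)
      have b : κ * (u k / 4 * (v k / 4)) ≤ 2 * (3 * 3) := Nat.mul_le_mul hκ (Nat.mul_le_mul (by omega) (by omega))
      omega
  have h3 : ∀ X Y : ℕ, X < 256 → dec ι (red3 (X + 256 * Y)) = X + Y * ι := fun X Y h => by
    change dec ι ((X + 256 * Y) % 256 % 3 + 4 * ((X + 256 * Y) / 256 % 3)) = _
    rw [dec, show ((X + 256 * Y) % 256 % 3 + 4 * ((X + 256 * Y) / 256 % 3)) % 4 = X % 3 by omega,
      show ((X + 256 * Y) % 256 % 3 + 4 * ((X + 256 * Y) / 256 % 3)) / 4 = Y % 3 by omega,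
      ← CharP.cast_eq_mod, ← CharP.cast_eq_mod]
  rw [h1, h3 _ _ (by rw [smul_eq_mul] at h2; omega), Nat.cast_sum, Nat.cast_sum, Finset.sum_mul,
    ← Finset.sum_add_distrib]
  refine Finset.sum_congr rfl fun k _ => ?_
  simp only [dec, Nat.cast_add, Nat.cast_mul, ← hι]
  ring

theorem D_mulc (hι : ι * ι = κ) (hκ : κ ≤ 2) (hn : n ≤ 6) (a b : ℕ) : D ι e (mulc n κ a b) = D ι e a * D ι e b := by
  ext i j
  rw [mulc, force_eq, force_eq, Nat.mul_eq, D_pk _ _ fun r => by
    rw [force_eq, force_eq, force_eq]; exact red3_lt _]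
  simp only [force_eq, ssum_eq]
  change dec ι (red3 (∑ k ∈ Finset.range n, term κ (nb4 a (n * ((n * e i + e j) / n) + k))
    (nb4 b (n * k + (n * e i + e j) % n)))) = _
  rw [idx_div, idx_mod, Matrix.mul_apply, Finset.sum_range, ← Equiv.sum_comp e]
  exact dec_red hι hκ (by rwa [Fintype.card_congr e, Fintype.card_fin]) (fun _ => nb4_lt _ _) fun _ => nb4_lt _ _

end dec

/-- codes of elements of a group -/
structure Ctx (Y : Type*) [Group Y] (n κ : ℕ) where
  /-- the codes of elements -/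
  Good : ℕ → Prop
  /-- the element with a given code -/
  cl : ℕ → Y
  good_one : Good (scc n 1)
  cl_one : cl (scc n 1) = 1
  good_mul : ∀ {a b}, Good a → Good b → Good (mulc n κ a b)
  cl_mul : ∀ {a b}, Good a → Good b → cl (mulc n κ a b) = cl a * cl b
  cl_sc : ∀ {a b u}, Good a → Good b → u < 16 → a = mulc n κ (scc n u) b → cl a = cl b

section mk

variable {R : Type*} [CommRing R] [CharP R 3] {ι : R} {I : Type*} [Fintype I] [DecidableEq I] {n : ℕ} (e : I ≃ Fin n)
  {κ : ℕ} (hι : ι * ι = κ) (hκ : κ ≤ 2) (hn : n ≤ 6) {X Y : Type*} [Group X] [Group Y] (val : X →* Matrix I I R)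
  (hval : Function.Injective val) (π : X →* Y) (hπ : ∀ x (c : R), val x = c • 1 → π x = 1)

include hι hκ hn hval hπ in
theorem exists_ctx : ∃ C : Ctx Y n κ, ∀ a x, val x = D ι e a → C.Good a ∧ C.cl a = π x := by
  classical
  let cl : ℕ → Y := fun a => if h : ∃ x, val x = D ι e a then π h.choose else 1
  have h1 : ∀ a x, val x = D ι e a → cl a = π x := fun a x h => by
    simp only [cl, dif_pos (⟨x, h⟩ : ∃ x, val x = D ι e a)]
    rw [hval ((⟨x, h⟩ : ∃ x, val x = D ι e a).choose_spec.trans h.symm)]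
  have h2 := (map_one val).trans (D_one ι e).symm
  refine ⟨⟨fun a => ∃ x, val x = D ι e a, cl, ⟨1, h2⟩, by rw [h1 _ _ h2, map_one], ?_, ?_, ?_⟩,
    fun a x h => ⟨⟨x, h⟩, h1 a x h⟩⟩
  · rintro a b ⟨x, hx⟩ ⟨y, hy⟩
    exact ⟨x * y, by rw [map_mul, hx, hy, D_mulc e hι hκ hn]⟩
  · rintro a b ⟨x, hx⟩ ⟨y, hy⟩
    rw [h1 _ (x * y) (by rw [map_mul, hx, hy, D_mulc e hι hκ hn]), h1 _ _ hx, h1 _ _ hy, map_mul]
  · rintro a b u ⟨x, hx⟩ ⟨y, hy⟩ hu h
    rw [h1 _ _ hx, h1 _ _ hy, ← mul_inv_eq_one, ← map_inv, ← map_mul]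
    refine hπ _ (dec ι u) ?_
    rw [map_mul, hx, h, D_mulc e hι hκ hn, D_scc _ _ hu, ← hy, mul_assoc, ← map_mul, mul_inv_cancel, map_one, mul_one]

end mk

/-- an entry of a certificate -/
structure Ent where
  /-- the element -/
  a : ℕ
  /-- the generator -/
  s : ℕ
  /-- the parent -/
  j : ℕ
  /-- the exponent -/
  k : ℕ
  /-- the representative -/
  b : ℕ
  /-- the conjugating element -/
  q : ℕ
  /-- the scalar -/
  u : ℕ

/-- membership -/
noncomputable def memb (a : ℕ) (L : List ℕ) : Bool := List.rec false (fun x _ ih => Bool.rec ih true (Nat.beq a x)) L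

theorem memb_iff {a : ℕ} {L : List ℕ} : memb a L = true ↔ a ∈ L := by
  induction L with
  | nil => simp [memb]
  | cons x t ih =>
    change Bool.rec (memb a t) true (Nat.beq a x) = true ↔ _
    rw [List.mem_cons, ← ih, ← Nat.beq_eq]
    cases Nat.beq a x <;> simp

/-- no repetitions -/
noncomputable def ndb (L : List ℕ) : Bool := List.rec true (fun x t ih => Bool.rec ih false (memb x t)) L

theorem ndb_spec {L : List ℕ} (h : ndb L = true) : L.Nodup := by
  induction L with
  | nil => simp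
  | cons x t ih =>
    change Bool.rec (ndb t) false (memb x t) = true at h
    rw [List.nodup_cons, ← memb_iff]
    cases h1 : memb x t <;> rw [h1] at h
    exacts [⟨by simp, ih h⟩, absurd h (by simp)]

/-- every element is a product of generators -/
noncomputable def treeOK (n κ : ℕ) (gens : List (ℕ × ℕ)) (T : List Ent) : List ℕ → Bool :=
  List.rec (fun _ => true) (fun e _ ih prev => Nat.beq e.a (mulc n κ ((gens.map Prod.fst).getD e.s (scc n 1))
    (prev.getD e.j (scc n 1))) && ih (e.a :: prev)) T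

/-- the list is permuted by the generators -/
noncomputable def closedOK (n κ : ℕ) (gens : List (ℕ × ℕ)) (L : List ℕ) : Bool :=
  gens.all fun s => L.all fun a => force (mulc n κ s.1 a) fun b => memb b L && Nat.beq (mulc n κ s.2 b) a

/-- a power of the element is conjugate to a representative -/
noncomputable def conjOK (n κ : ℕ) (wit : ℕ → ℕ) (wchk : ℕ → Bool) (reps : List ℕ) (e : Ent) : Bool :=
  wchk e.q && Nat.ble e.u 15 && force (wit e.q) fun p =>
    Nat.beq (mulc n κ p (pwc n κ e.a e.k)) (mulc n κ (scc n e.u) (mulc n κ (reps.getD e.b (scc n 1)) p))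

/-- the eighth power is trivial -/
noncomputable def expOK (n κ a : ℕ) : Bool :=
  force (mulc n κ a a) fun b => force (mulc n κ b b) fun c => Nat.beq (mulc n κ c c) (scc n 1)

namespace Ctx

variable {Y : Type*} [Group Y] {n κ : ℕ} (C : Ctx Y n κ)

theorem pw {a : ℕ} (h : C.Good a) (k : ℕ) : C.Good (pwc n κ a k) ∧ C.cl (pwc n κ a k) = C.cl a ^ k := by
  induction k with
  | zero => exact ⟨C.good_one, by rw [pow_zero]; exact C.cl_one⟩
  | succ k ih => exact ⟨C.good_mul h ih.1, by rw [pow_succ', ← ih.2]; exact C.cl_mul h ih.1⟩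

theorem exp {a : ℕ} (h : C.Good a) (e : expOK n κ a = true) : C.cl a ^ 8 = 1 := by
  rw [expOK, force_eq, force_eq, Nat.beq_eq] at e
  have h1 := C.good_mul h h
  have := congrArg C.cl e
  rw [C.cl_mul (C.good_mul h1 h1) (C.good_mul h1 h1), C.cl_mul h1 h1, C.cl_mul h h, C.cl_one] at this
  rw [← this]
  simp only [pow_succ, pow_zero, one_mul, mul_assoc]

theorem getD {L : List ℕ} {P : Y → Prop} (h1 : P 1) (h : ∀ a ∈ L, C.Good a ∧ P (C.cl a)) (i : ℕ) :
    C.Good (L.getD i (scc n 1)) ∧ P (C.cl (L.getD i (scc n 1))) := by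
  rcases lt_or_ge i L.length with hi | hi
  · rw [List.getD_eq_getElem _ _ hi]; exact h _ (List.getElem_mem hi)
  · rw [List.getD_eq_default _ _ hi, C.cl_one]; exact ⟨C.good_one, h1⟩

/-- the set of generators -/
def S (gens : List (ℕ × ℕ)) : Set Y := {g | ∃ s ∈ gens, C.cl s.1 = g}

theorem tree {gens : List (ℕ × ℕ)} (hg : ∀ s ∈ gens, C.Good s.1) {T : List Ent} {prev : List ℕ}
    (hp : ∀ a ∈ prev, C.Good a ∧ C.cl a ∈ Subgroup.closure (C.S gens)) (h : treeOK n κ gens T prev = true) :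
    ∀ e ∈ T, C.Good e.a ∧ C.cl e.a ∈ Subgroup.closure (C.S gens) := by
  induction T generalizing prev with
  | nil => simp
  | cons e t ih =>
    change (_ && treeOK n κ gens t (e.a :: prev)) = true at h
    rw [Bool.and_eq_true, Nat.beq_eq] at h
    have h1 := C.getD (L := gens.map Prod.fst) (P := (· ∈ Subgroup.closure (C.S gens))) (one_mem _) (by
      simp only [List.mem_map]
      rintro _ ⟨s, hs, rfl⟩
      exact ⟨hg s hs, Subgroup.subset_closure ⟨s, hs, rfl⟩⟩) e.s
    have h2 := C.getD (P := (· ∈ Subgroup.closure (C.S gens))) (one_mem _) hp e.j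
    have h3 : C.Good e.a ∧ C.cl e.a ∈ Subgroup.closure (C.S gens) := by
      rw [h.1, C.cl_mul h1.1 h2.1]
      exact ⟨C.good_mul h1.1 h2.1, mul_mem h1.2 h2.2⟩
    exact List.forall_mem_cons.2 ⟨h3, ih (List.forall_mem_cons.2 ⟨h3, hp⟩) h.2⟩

theorem fam {gens : List (ℕ × ℕ)} (hg : ∀ s ∈ gens, C.Good s.1) {T : List Ent} (h1 : treeOK n κ gens T [] = true)
    (h2 : closedOK n κ gens (T.map Ent.a) = true) :
    Fam (fun i : (T.map Ent.a).toFinset => C.cl i) (C.S gens) := by
  have h3 : ∀ a ∈ T.map Ent.a, C.Good a ∧ C.cl a ∈ Subgroup.closure (C.S gens) := by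
    simpa only [List.forall_mem_map] using C.tree hg (by simp) h1
  simp only [closedOK, List.all_eq_true, force_eq, Bool.and_eq_true, memb_iff, Nat.beq_eq] at h2
  refine ⟨?_, fun i => (h3 _ (List.mem_toFinset.1 i.2)).2⟩
  rintro _ ⟨s, hs, rfl⟩
  let σ : (T.map Ent.a).toFinset → (T.map Ent.a).toFinset := fun i =>
    ⟨mulc n κ s.1 i, List.mem_toFinset.2 (h2 s hs _ (List.mem_toFinset.1 i.2)).1⟩
  refine ⟨Equiv.ofBijective σ (Finite.injective_iff_bijective.1 fun i j h => Subtype.ext ?_), fun i => ?_⟩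
  · rw [← (h2 s hs _ (List.mem_toFinset.1 i.2)).2, ← (h2 s hs _ (List.mem_toFinset.1 j.2)).2]
    exact congrArg (fun x : (T.map Ent.a).toFinset => mulc n κ s.2 x) h
  · exact (C.cl_mul (hg s hs) (h3 _ (List.mem_toFinset.1 i.2)).1).symm

theorem conj {wit : ℕ → ℕ} {wchk : ℕ → Bool} (hw : ∀ q, wchk q = true → C.Good (wit q)) {reps : List ℕ}
    (hr : ∀ a ∈ reps, C.Good a) {e : Ent} (ha : C.Good e.a) (h : conjOK n κ wit wchk reps e = true) :
    IsConj (C.cl e.a ^ e.k) (C.cl (reps.getD e.b (scc n 1))) := by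
  simp only [conjOK, force_eq, Bool.and_eq_true, Nat.beq_eq, Nat.ble_eq] at h
  have h1 := hw _ h.1.1
  have h2 := C.pw ha e.k
  have h3 := (C.getD (P := fun _ => True) trivial (fun a h => ⟨hr a h, trivial⟩) e.b).1
  have := C.cl_sc (C.good_mul h1 h2.1) (C.good_mul h3 h1) (by omega) h.2
  rw [C.cl_mul h1 h2.1, C.cl_mul h3 h1, h2.2] at this
  exact isConj_iff.2 ⟨_, mul_inv_eq_iff_eq_mul.2 this⟩

end Ctx

theorem sum_list {A : Type*} [AddCommMonoid A] {T : List Ent} (h : ndb (T.map Ent.a) = true) (g : ℕ → A) :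
    ∑ i : (T.map Ent.a).toFinset, g i = (T.map fun e => g e.a).sum := by
  rw [Finset.sum_coe_sort, List.sum_toFinset _ (ndb_spec h), List.map_map]; rfl

theorem card_list {T : List Ent} (h : ndb (T.map Ent.a) = true) : Fintype.card (T.map Ent.a).toFinset = T.length := by
  rw [Fintype.card_coe, List.toFinset_card_of_nodup (ndb_spec h), List.length_map]

section rr

variable {G : Type*} [Group G]

theorem Fam.sum_eq {ι : Type*} [Fintype ι] {f : ι → G} {S : Set G} (h : Fam f S) [Fintype (Subgroup.closure S)]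
    (g : G → ℂ) : Fintype.card (Subgroup.closure S) * ∑ i, g (f i) =
      Fintype.card ι * ∑ q : Subgroup.closure S, g q := by
  have h1 : ∀ q : Subgroup.closure S, ∑ i, g (q * f i) = ∑ i, g (f i) := fun q => by
    obtain ⟨σ, hσ⟩ := h.perm q.2
    simp only [hσ]
    exact Equiv.sum_comp σ fun i => g (f i)
  have h2 : ∀ i, ∑ q : Subgroup.closure S, g (q * f i) = ∑ q : Subgroup.closure S, g q := fun i =>
    Equiv.sum_comp (Equiv.mulRight (⟨f i, h.2 i⟩ : Subgroup.closure S)) fun q => g q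
  have := Finset.sum_comm (s := Finset.univ) (t := Finset.univ) (f := fun (q : Subgroup.closure S) i => g (q * f i))
  simpa only [h1, h2, Finset.sum_const, Finset.card_univ, nsmul_eq_mul] using this

/-- the mean of the Brauer character over the generators of a cyclic group of order two, four or eight -/
noncomputable def rr {k V : Type*} [Field k] [AddCommGroup V] [Module k V] (ρ : Representation k G V) (g : G) : ℤ :=
  2 * fx ρ g - fx ρ (g ^ 2)

theorem rr_conj {k V : Type*} [Field k] [AddCommGroup V] [Module k V] (ρ : Representation k G V) {g h : G}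
    (e : IsConj g h) : rr ρ g = rr ρ h := by rw [rr, rr, fx_of_isConj ρ e, fx_of_isConj ρ (e.pow 2)]

theorem fx_pow_odd {k V : Type*} [Field k] [AddCommGroup V] [Module k V] [FiniteDimensional k V]
    (ρ : Representation k G V) {g : G} (h : g ^ 8 = 1) {m : ℕ} (hm : m * m % 8 = 1) : fx ρ (g ^ m) = fx ρ g := by
  refine le_antisymm ?_ (fx_le_pow ρ g m)
  have := fx_le_pow ρ (g ^ m) m
  rwa [← pow_mul, pow_eq_pow_mod (m * m) h, hm, pow_one] at this

theorem rr_pow_odd {k V : Type*} [Field k] [AddCommGroup V] [Module k V] [FiniteDimensional k V]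
    (ρ : Representation k G V) {g : G} (h : g ^ 8 = 1) {m : ℕ} (hm : m * m % 8 = 1) : rr ρ (g ^ m) = rr ρ g := by
  rw [rr, rr, fx_pow_odd ρ h hm, pow_right_comm, fx_pow_odd ρ (by rw [pow_right_comm, h, one_pow]) hm]

variable [Fintype G] {M : Ideal AlgInt} {hM : IsPModular 3 M}
  {V : Type*} [AddCommGroup V] [Module (K hM) V] [FiniteDimensional (K hM) V] (ρ : Representation (K hM) G V)

theorem Fam.sum_rr {ι : Type*} [Fintype ι] {f : ι → G} {S : Set G} (h : Fam f S) (hp : ¬ 3 ∣ Fintype.card ι)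
    (h8 : ∀ i, f i ^ 8 = 1) : ∑ i, rr ρ (f i) = Fintype.card ι * fxS ρ S := by
  classical
  obtain ⟨β, hβ⟩ := exists_brauer ρ
  have : Nonempty ι := Fintype.card_pos_iff.1 (Nat.pos_of_ne_zero fun e => hp (e ▸ dvd_zero 3))
  have h1 : ∀ q : Subgroup.closure S, q ^ 8 = 1 := fun q => by
    obtain ⟨i⟩ := this
    obtain ⟨σ, hσ⟩ := h.perm (mul_mem q.2 (inv_mem (h.2 i)))
    exact Subtype.ext (by rw [Subgroup.coe_pow, ← inv_mul_cancel_right (q : G) (f i), hσ, h8]; rfl)
  have h2 : ∀ m, m * m % 8 = 1 → ∑ q : Subgroup.closure S, β (q ^ m) = ∑ q : Subgroup.closure S, β q := fun m hm =>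
    Equiv.sum_comp (Function.Involutive.toPerm (fun q : Subgroup.closure S => q ^ m) fun q => by
      simp only [← pow_mul]; rw [pow_eq_pow_mod _ (h1 q), hm, pow_one]) fun q => β q
  have h3 : ∀ q : Subgroup.closure S, (4 * rr ρ q : ℂ) = β q + β (q ^ 3) + β (q ^ 5) + β (q ^ 7) := fun q => by
    have e : (q : G) ^ 8 = 1 := congrArg Subtype.val (h1 q)
    have a := hβ.sum_pow (g := q) (m := 8) (by decide) e
    have b := hβ.sum_pow (g := (q : G) ^ 2) (m := 4) (by decide) (by rw [← pow_mul, e])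
    simp only [Finset.sum_range_succ, Finset.sum_range_zero, ← pow_mul, pow_one, Nat.reduceMul, mul_zero] at a b
    rw [rr]
    push_cast at a b ⊢
    linear_combination b - a
  have h4 := h.sum_eq fun g => rr ρ g
  have h5 := h.sum_eq β
  have h6 : (4 : ℂ) * ∑ q : Subgroup.closure S, (rr ρ q : ℂ) = 4 * ∑ q : Subgroup.closure S, β q := by
    rw [Finset.mul_sum]
    simp only [h3, Finset.sum_add_distrib, h2 3 rfl, h2 5 rfl, h2 7 rfl]
    ring
  rw [mul_left_cancel₀ (by norm_num) h6, ← h5, mul_right_inj' (by simp), hβ.sum_fam h hp] at h4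
  exact_mod_cast h4

end rr

theorem L8_mem {M : Ideal AlgInt} (hM : IsPModular 3 M) {g : E} (h : g ^ 8 = 1) :
    [fx (ρE hM) g, fx (ρE hM) (g ^ 2), fx (ρE hM) (g ^ 4)] ∈ L8 := by
  obtain ⟨y, h1, -⟩ := exists_tor hM g (by decide) h
  simpa only [pow_one] using h1.d8

end CfsgLib.E83
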