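import Mathlib
import Cfsg.Agent.Lib.E83.Code

/-!
# Sums over certified small subgroups
-/

set_option autoImplicit false
set_option linter.unusedSectionVars false

namespace CfsgLib.E83

attribute [local implicit_reducible] CfsgLib.Block.K

open Cfsg CfsgLib.Block CfsgLib.Char Module Matrix

/-- the list is a family permuted by the generators -/
noncomputable def famOK (n κ : ℕ) (gens : List (ℕ × ℕ)) (T : List Ent) : Bool :=
  treeOK n κ gens T [] && closedOK n κ gens (T.map Ent.a) && ndb (T.map Ent.a)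

/-- the numbers of elements attached to each representative -/
def cntOK (T : List Ent) (cs : List ℕ) : Bool :=
  T.all (fun e => e.b < cs.length) && (List.range cs.length).all fun b => (T.map Ent.b).count b == cs.getD b 0

theorem sum_cnt {A : Type*} [AddCommMonoid A] {T : List Ent} {cs : List ℕ} (h : cntOK T cs = true) (G : ℕ → A) :
    (T.map fun e => G e.b).sum = ∑ b ∈ Finset.range cs.length, cs.getD b 0 • G b := by
  simp only [cntOK, Bool.and_eq_true, List.all_eq_true, decide_eq_true_eq, List.mem_range, beq_iff_eq] at h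
  rw [show (T.map fun e => G e.b) = (T.map Ent.b).map G by rw [List.map_map]; rfl, Finset.sum_list_map_count,
    Finset.sum_subset (s₂ := Finset.range cs.length)]
  · exact Finset.sum_congr rfl fun b hb => by rw [h.2 b (Finset.mem_range.1 hb)]
  · intro b hb
    obtain ⟨e, he, rfl⟩ := List.mem_map.1 (List.mem_toFinset.1 hb)
    exact Finset.mem_range.2 (h.1 e he)
  · intro b _ hb
    rw [List.count_eq_zero_of_not_mem (by simpa using hb), zero_smul]

namespace Ctx

variable {Y : Type*} [Group Y] [Fintype Y] {n κ : ℕ} (C : Ctx Y n κ) {M : Ideal AlgInt} {hM : IsPModular 3 M}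
  {V : Type*} [AddCommGroup V] [Module (K hM) V] [FiniteDimensional (K hM) V] (ρ : Representation (K hM) Y V)
  {gens : List (ℕ × ℕ)} {T : List Ent} {wit : ℕ → ℕ} {reps cs : List ℕ} (hw : ∀ q, C.Good (wit q))
  (hg : ∀ s ∈ gens, C.Good s.1) (hr : ∀ a ∈ reps, C.Good a) (h1 : famOK n κ gens T = true)
  (h2 : T.all (conjOK n κ wit (fun _ => true) reps) = true) (hp : ¬ 3 ∣ T.length)

include hg h1 in
theorem mem {e : Ent} (he : e ∈ T) : C.Good e.a ∧ C.cl e.a ∈ Subgroup.closure (C.S gens) := by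
  simp only [famOK, Bool.and_eq_true] at h1
  exact C.tree hg (by simp) h1.1.1 e he

include hw hg hr h1 h2 in
theorem conj' {e : Ent} (he : e ∈ T) : IsConj (C.cl e.a ^ e.k) (C.cl (reps.getD e.b (scc n 1))) :=
  C.conj (fun q _ => hw q) hr (C.mem hg h1 he).1 (List.all_eq_true.1 h2 e he)

include hg h1 hp in
theorem sum_rr (h3 : ∀ e ∈ T, expOK n κ e.a = true) :
    (T.map fun e => rr ρ (C.cl e.a)).sum = T.length * fxS ρ (C.S gens) := by
  have h4 := fun e => C.mem hg h1 (e := e)
  simp only [famOK, Bool.and_eq_true] at h1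
  rw [← sum_list h1.2 fun a => rr ρ (C.cl a), ← card_list h1.2]
  refine (C.fam hg h1.1.1 h1.1.2).sum_rr ρ (by rwa [card_list h1.2]) fun i => ?_
  obtain ⟨e, he, h⟩ := List.mem_map.1 (List.mem_toFinset.1 i.2)
  rw [← h]
  exact C.exp (h4 e he).1 (h3 e he)

include hw hg hr h1 h2 hp in
theorem cnt_rr (h3 : T.all (fun e => expOK n κ e.a && e.k * e.k % 8 == 1) = true) (h4 : cntOK T cs = true) :
    ∑ b ∈ Finset.range cs.length, cs.getD b 0 • rr ρ (C.cl (reps.getD b (scc n 1))) =
      T.length * fxS ρ (C.S gens) := by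
  simp only [List.all_eq_true, Bool.and_eq_true, beq_iff_eq] at h3
  rw [← C.sum_rr ρ hg h1 hp fun e he => (h3 e he).1, ← sum_cnt h4]
  refine congrArg _ (List.map_congr_left fun e he => ?_)
  rw [← rr_conj ρ (C.conj' hw hg hr h1 h2 he), rr_pow_odd ρ (C.exp (C.mem hg h1 he).1 (h3 e he).1) (h3 e he).2]

include hw hg hr h1 h2 hp in
theorem cnt_brauer {β : Y → ℂ} (hβ : Brauer ρ β) (h3 : T.all (fun e => e.k == 1) = true) (h4 : cntOK T cs = true) :
    ∑ b ∈ Finset.range cs.length, cs.getD b 0 • β (C.cl (reps.getD b (scc n 1))) =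
      T.length * fxS ρ (C.S gens) := by
  simp only [List.all_eq_true, beq_iff_eq] at h3
  have h5 := fun e => C.conj' hw hg hr h1 h2 (e := e)
  simp only [famOK, Bool.and_eq_true] at h1
  rw [← sum_cnt h4, ← card_list h1.2, ← hβ.sum_fam (C.fam hg h1.1.1 h1.1.2) (by rwa [card_list h1.2]),
    sum_list h1.2 fun a => β (C.cl a)]
  refine congrArg _ (List.map_congr_left fun e he => ?_)
  obtain ⟨x, hx⟩ := isConj_iff.1 (h5 e he)
  rw [← hx, h3 e he, pow_one, hβ.isClass]

end Ctx

/-- a transposed matrix -/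
noncomputable def tc (n : ℕ) (f : ℕ → ℕ) (a : ℕ) : ℕ :=
  force a fun a => pk (fun t => f (nb4 a (n * (t % n) + t / n))) (n * n)

section mk

variable {R : Type*} [CommRing R] [CharP R 3] {ι : R} {I : Type*} [Fintype I] [DecidableEq I] {n : ℕ} (e : I ≃ Fin n)
  {κ : ℕ} (hι : ι * ι = κ) (hκ : κ ≤ 2) (hn : n ≤ 6) {X : Type*} [Group X] (val : X →* Matrix I I R)
  (hval : Function.Injective val)

theorem D_tc {f : ℕ → ℕ} (hf : ∀ u < 16, f u < 16) (a : ℕ) (i j : I) :
    D ι e (tc n f a) i j = dec ι (f (nb4 a (n * e j + e i))) := by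
  rw [tc, force_eq, D_pk _ _ fun r => hf _ (nb4_lt _ _), idx_div, idx_mod]

include hι hκ hn in
theorem D_pwc (a k : ℕ) : D ι e (pwc n κ a k) = D ι e a ^ k := by
  induction k with
  | zero => exact D_one ι e
  | succ k ih => rw [pow_succ', ← ih]; exact D_mulc e hι hκ hn _ _

include hι hκ hn hval in
theorem exists_ctx' : ∃ C : Ctx (X ⧸ Subgroup.center X) n κ, ∀ a x, val x = D ι e a → C.Good a ∧ C.cl a = x :=
  exists_ctx e hι hκ hn val hval (QuotientGroup.mk' _) fun x c h => (QuotientGroup.eq_one_iff x).2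
    (Subgroup.mem_center_iff.2 fun y => hval (by rw [map_mul, map_mul, h]; simp))

include hι hκ hn in
theorem mk_ne_one [Nontrivial R] {a b : ℕ} {x y : X} (hx : val x = D ι e a) (hy : val y = D ι e b) (i j : I)
    (h0 : nb4 (mulc n κ a b) (n * e i + e j) = 1) (h1 : nb4 (mulc n κ b a) (n * e i + e j) = 2) :
    (x : X ⧸ Subgroup.center X) ≠ 1 := fun h => by
  have := congrArg val (Subgroup.mem_center_iff.1 ((QuotientGroup.eq_one_iff x).1 h) y)
  rw [map_mul, map_mul, hx, hy, ← D_mulc e hι hκ hn, ← D_mulc e hι hκ hn] at this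
  have := congrFun (congrFun this i) j
  simp only [D, h0, h1, dec, Matrix.of_apply] at this
  exact one_ne_zero (α := R) (by push_cast at this; linear_combination this)

end mk

section emb

variable {Y : Type*} [Group Y] (ψ : Y →* E) {M : Ideal AlgInt} (hM : IsPModular 3 M)

theorem L8_comp {g : Y} (h : g ^ 8 = 1) :
    [fx ((ρE hM).comp ψ) g, fx ((ρE hM).comp ψ) (g ^ 2), fx ((ρE hM).comp ψ) (g ^ 4)] ∈ L8 := by
  simpa only [fx_comp, map_pow] using L8_mem hM (g := ψ g) (by rw [← map_pow, h, map_one])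

theorem fx_comp_ne (hψ : Function.Injective ψ) {g : Y} (h : g ≠ 1) : fx ((ρE hM).comp ψ) g ≠ 248 := by
  rw [fx_comp]; exact fx_ne hM (by rwa [Ne, map_eq_one_iff _ hψ])

theorem fx_comp_one : fx ((ρE hM).comp ψ) 1 = 248 := by rw [fx_one, finrank_E]

end emb

end CfsgLib.E83
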