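import Mathlib
import Cfsg.Agent.Lib.E83.Enum
import Cfsg.Agent.Lib.E83.Brauer
import Cfsg.Agent.Lib.Semi.Chev

/-!
# Fixed spaces of semisimple elements of `E₈(3)` on the adjoint module
-/

set_option autoImplicit false

namespace CfsgLib.E83

open CfsgLib.RGD CfsgLib.Lang CfsgLib.Chev CfsgLib.Weyl CfsgLib.Semi Cfsg.Lie Module

/-- the data of a torus element of exponent `N` -/
structure Tor (N a : ℕ) (y : Fin 8 → ℤ) (f : ℕ → ℕ) : Prop where
  stab : Stab N y a
  fx : ∀ k, f k = 8 + cnt N y k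

theorem ip_modEq {N : ℕ} {y y' : Fin 8 → ℤ} (h : ∀ j, y j ≡ y' j [ZMOD N]) (r : Fin 240) :
    Φ.ip y r ≡ Φ.ip y' r [ZMOD N] := Int.ModEq.sum fun j _ => (h j).mul_left _

theorem Stab.congr {N a : ℕ} {y y' : Fin 8 → ℤ} (h : Stab N y a) (e : ∀ j, y j ≡ y' j [ZMOD N]) : Stab N y' a := by
  obtain ⟨w, hw, h⟩ := h
  exact ⟨w, hw, fun r => (ip_modEq e _).symm.trans ((h r).trans ((ip_modEq e r).mul_left _))⟩

theorem Stab.of_dvd {N N' a : ℕ} {y : Fin 8 → ℤ} (h : Stab N y a) (e : N' ∣ N) : Stab N' y a := by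
  obtain ⟨w, hw, h⟩ := h
  exact ⟨w, hw, fun r => (h r).of_dvd (Int.natCast_dvd_natCast.2 e)⟩

theorem Stab.mul {N a b : ℕ} {y : Fin 8 → ℤ} (h : Stab N y a) (h' : Stab N y b) : Stab N y (a * b) := by
  obtain ⟨w, hw, h⟩ := h
  obtain ⟨w', hw', h'⟩ := h'
  exact ⟨w * w', mul_mem hw hw', fun r => by
    rw [Nat.cast_mul, mul_assoc]; exact (h _).trans ((h' r).mul_left _)⟩

theorem cnt_congr {N : ℕ} {y y' : Fin 8 → ℤ} (e : ∀ j, y j ≡ y' j [ZMOD N]) (k : ℕ) : cnt N y k = cnt N y' k := by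
  unfold cnt
  congr 1
  exact Finset.filter_congr fun r _ => ((ip_modEq e r).mul_left _).dvd_iff

theorem cnt_mul (N : ℕ) {m : ℕ} (hm : m ≠ 0) (y : Fin 8 → ℤ) (k : ℕ) : cnt (m * N) y (m * k) = cnt N y k := by
  unfold cnt
  congr 1
  refine Finset.filter_congr fun r _ => ?_
  rw [Nat.cast_mul, Nat.cast_mul, mul_assoc, mul_dvd_mul_iff_left (by exact_mod_cast hm)]

theorem cnt_of_dvd {N k : ℕ} {y : Fin 8 → ℤ} (h : ∀ j, (N : ℤ) ∣ k * y j) : cnt N y k = 240 := by
  rw [cnt, Finset.filter_true_of_mem, Finset.card_univ, Fintype.card_fin]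
  intro r _
  rw [RootSys.ip, Finset.mul_sum]
  exact Finset.dvd_sum fun j _ => by rw [mul_left_comm]; exact (h j).mul_left _

variable {N a : ℕ} {y : Fin 8 → ℤ} {f : ℕ → ℕ}

theorem Tor.congr (h : Tor N a y f) {y' : Fin 8 → ℤ} (e : ∀ j, y j ≡ y' j [ZMOD N]) : Tor N a y' f :=
  ⟨h.stab.congr e, fun k => by rw [h.fx, cnt_congr e]⟩

theorem Tor.res {m : ℕ} (hm : m ≠ 0) (h : Tor (m * N) a y f) : Tor N a y fun k => f (m * k) :=
  ⟨h.stab.of_dvd (dvd_mul_left _ _), fun k => by rw [h.fx, cnt_mul _ hm]⟩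

theorem Tor.move (h : Tor N a y f) {x : Equiv.Perm (Fin 240)} (hx : x ∈ Φ.W) :
    Tor N a (fun j => Φ.ip y (x (Φ.simple j))) f := by
  obtain ⟨⟨w, hw, h1⟩, h2⟩ := h
  refine ⟨⟨x⁻¹ * w * x, mul_mem (mul_mem (inv_mem hx) hw) hx, fun r => ?_⟩, fun k => ?_⟩
  · rw [ip_comp Φ hx, ip_comp Φ hx]
    simpa using h1 (x r)
  · rw [h2]
    simp only [cnt, ip_comp Φ hx]
    congr 1
    exact (Finset.card_equiv x (by simp)).symm

theorem Tor.alcove (h : Tor N a y f) {N₁ : ℕ} (h0 : 0 < N₁) :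
    ∃ y', ∃ z : Fin 8 → ℕ, Tor N a y' f ∧ (∀ j, y' j ≡ z j [ZMOD N₁]) ∧ Alc N₁ z := by
  obtain ⟨x, hx, z, h1, h2⟩ := exists_alcove Φ h0 y
  refine ⟨_, z, h.move hx, fun j => by simpa [Φ.ip_simple] using (h1 (Φ.simple j)).symm, ?_⟩
  have := h2 239
  rw [RootSys.ip, show Φ.rt 239 = th by decide +kernel] at this
  simp [Fin.sum_univ_eight, th] at this
  unfold Alc
  omega

theorem Tor.alc (h : Tor N a y f) (h0 : 0 < N) : ∃ z : Fin 8 → ℕ, Alc N z ∧ Tor N a (fun j => z j) f := by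
  obtain ⟨y', z, h1, h2, h3⟩ := h.alcove h0
  exact ⟨z, h3, h1.congr h2⟩

/-- a test on the dimensions of fixed spaces -/
noncomputable def okc (N : ℕ) (ks : List ℕ) (P : List ℕ → Bool) (a b c d e f g h : ℕ) : Bool :=
  P (ks.map fun k => Nat.add 8 (cn N k a b c d e f g h))

theorem Tor.enum (h : Tor N a y f) {cq : ℕ} {pc : ℕ → Bool} {ks : List ℕ} {P : List ℕ → Bool}
    (he : enum N a cq pc (okc N ks P) = true) (hN : 0 < N) (hN' : N ≤ 1000) (hq : (cq + 1) % N = a ^ 2 % N)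
    (hp : pc (f 1 - 8) = true) : P (ks.map f) = true := by
  obtain ⟨z, h1, h2⟩ := h.alc hN
  have := enum_spec he hN hN' hq h1 h2.stab (by rwa [h2.fx, Nat.add_sub_cancel_left] at hp)
  simp only [okc, cn_eq hN (h1.le hN'), Nat.add_eq, ← h2.fx] at this
  exact this

theorem Tor.modEq (h : Tor N a y f) (hN : 0 < N) (hN' : N ≤ 1000) (ha : N.Coprime a) {k₁ k₂ d : ℕ} (hk : k₁ ∣ k₂)
    (T : List ℕ) (hT : ((List.range N).filter fun v => k₂ * v % N = 0 ∧ k₁ * v % N ≠ 0).Perm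
      (T.flatMap fun t => (List.range d).map fun i => a ^ i * t % N)) : f k₂ ≡ f k₁ [MOD d] := by
  obtain ⟨z, h1, ⟨w, -, h2⟩, h3⟩ := h.alc hN
  have hz := h1.le hN'
  have h4 : ∀ k, cnt N (fun j => z j) k = (Finset.univ.filter fun r : Fin 240 => k * vz N z r % N = 0).card :=
    fun k => by
      rw [← cn_eq hN hz, cn, force_eq, force_eq, cn_def, Finset.card_filter]
      simp only [vz_def]
  let n : ℕ → ℕ := fun v => (Finset.univ.filter fun r : Fin 240 => vz N z r = v).card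
  have h5 : ∀ v, n (a * v % N) = n (v % N) := fun v => (Finset.card_equiv w fun r => by
    simp only [Finset.mem_filter, Finset.mem_univ, true_and, vz_perm hN hz h2]
    refine ⟨fun e => by rw [e, Nat.mul_mod_mod], fun e => ?_⟩
    rw [← Nat.mod_eq_of_lt (vz_lt hN z r)]
    exact Nat.ModEq.cancel_left_of_coprime ha e).symm
  have h6 : ∀ i t, n (a ^ i * t % N) = n (t % N) := fun i t => by
    induction i with
    | zero => simp
    | succ i ih => rw [pow_succ', mul_assoc, h5, ih]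
  have h7 : ∀ T : List ℕ, d ∣ ((T.flatMap fun t => (List.range d).map fun i => a ^ i * t % N).map n).sum := fun T => by
    induction T with
    | nil => simp
    | cons t T ih =>
      rw [List.flatMap_cons, List.map_append, List.sum_append, List.map_map]
      refine dvd_add ?_ ih
      simp [Function.comp_def, h6]
  have h8 := h7 T
  rw [← (hT.map n).sum_eq, ← List.sum_toFinset _ (List.nodup_range.filter _),
    Finset.sum_card_fiberwise_eq_card_filter] at h8
  have h9 := Finset.card_filter_add_card_filter_not (s := Finset.univ.filter fun r : Fin 240 => k₂ * vz N z r % N = 0)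
    fun r => k₁ * vz N z r % N = 0
  rw [Finset.filter_filter, Finset.filter_filter] at h9
  rw [h3, h3, h4, h4, ← h9, ← add_assoc]
  refine ((Nat.modEq_iff_dvd' (Nat.le_add_right_of_le (le_of_eq ?_))).2 ?_).symm
  · congr 2
    refine Finset.filter_congr fun r _ => ⟨fun e => ⟨?_, e⟩, fun e => e.2⟩
    obtain ⟨c, rfl⟩ := hk
    rw [mul_right_comm, ← Nat.mod_mul_mod, e]; simp
  · have : (Finset.univ.filter fun r : Fin 240 => k₂ * vz N z r % N = 0 ∧ k₁ * vz N z r % N = 0) =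
        Finset.univ.filter fun r : Fin 240 => k₁ * vz N z r % N = 0 := by
      refine Finset.filter_congr fun r _ => ⟨fun e => e.2, fun e => ⟨?_, e⟩⟩
      obtain ⟨c, rfl⟩ := hk
      rw [mul_right_comm, ← Nat.mod_mul_mod, e]; simp
    rw [this, Nat.add_sub_cancel_left]
    convert h8 using 2
    refine Finset.filter_congr fun r _ => ?_
    simp [vz_lt hN]

theorem Tor.zero (h : Tor N a y f) : f 0 = 248 := by rw [h.fx, cnt_of_dvd fun j => by simp]

/-! ### the group -/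

section

variable {K : Type} [Field K] {D : ChevalleyDatum}

variable (D K) in
/-- the natural module of the general linear group -/
noncomputable def ρG : Representation K (GL D.Idx K) (D.Idx → K) :=
  (Matrix.toLinAlgEquiv' : Matrix D.Idx D.Idx K ≃ₐ[K] _).toAlgHom.toMonoidHom.comp (Units.coeHom _)

theorem ρG_apply (g : GL D.Idx K) (v : D.Idx → K) : ρG K D g v = (g : Matrix D.Idx D.Idx K).mulVec v := rfl

theorem finrank_V : finrank K (D.Idx → K) = D.rank + D.nroots := by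
  rw [finrank_fintype_fun_eq_card, Fintype.card_sum, Fintype.card_fin, Fintype.card_fin]

open Classical in
theorem fx_tau (h : RtOK D) (c : Fin D.rank → Kˣ) : fx (ρG K D) (tau D K c) =
    D.rank + (Finset.univ.filter fun r : Fin D.nroots => (rootSys h).chr c r = 1).card := by
  let d : D.Idx → K := Sum.elim (fun _ => 0) fun r => (((rootSys h).chr c r : Kˣ) : K) - 1
  have h1 : fix (ρG K D) {tau D K c} = LinearMap.ker (Matrix.toLin' (Matrix.diagonal d)) := by
    ext v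
    rw [mem_fix_single, ρG_apply, tau_val, diagR, LinearMap.mem_ker, Matrix.toLin'_apply, funext_iff, funext_iff]
    refine forall_congr' fun i => ?_
    rw [Matrix.mulVec_diagonal, Matrix.mulVec_diagonal]
    rcases i with i | i
    · simp [d]
    · simp only [d, Sum.elim_inr, sub_mul, one_mul, Pi.zero_apply, sub_eq_zero]; rfl
  have h2 := LinearMap.finrank_range_add_finrank_ker (Matrix.toLin' (Matrix.diagonal d))
  rw [finrank_V, ← h1] at h2
  have h3 := Matrix.rank_diagonal d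
  rw [Matrix.rank, ← Matrix.toLin'_apply', Fintype.card_subtype, Finset.card_filter, Fintype.sum_sum_type] at h3
  have h4 := Finset.card_filter_add_card_filter_not (s := Finset.univ)
    fun r : Fin D.nroots => (rootSys h).chr c r = 1
  rw [Finset.card_univ, Fintype.card_fin, Finset.card_filter fun r => ¬ _] at h4
  simp only [d, Sum.elim_inl, Sum.elim_inr, ne_eq, not_true_eq_false, if_false, Finset.sum_const_zero, zero_add,
    sub_eq_zero, Units.val_eq_one] at h3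
  rw [h3] at h2
  change _ + fx _ _ = _ at h2
  omega

variable {F : Type} [Field F] (φ : F →+* K)

variable (D) in
/-- the adjoint module -/
noncomputable def ρD : Representation K (D.group F) (D.Idx → K) :=
  (ρG K D).comp ((glm D φ).comp (D.group F).subtype)

theorem fx_ne' {g : D.group F} (hg : g ≠ 1) : fx (ρD D φ) g ≠ D.rank + D.nroots := fun e => hg (by
  have := eq_one_of_fx (ρD D φ) (e.trans finrank_V.symm)
  refine Subtype.ext (glm_injective φ (Units.ext ?_))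
  refine (Matrix.toLinAlgEquiv' : Matrix D.Idx D.Idx K ≃ₐ[K] _).injective ?_
  rw [OneMemClass.coe_one, map_one, Units.val_one, map_one]
  exact this)

theorem fusion {ι κ : Type} [Fintype κ] [DecidableEq κ] {Φ : RootSys ι κ} [Finite ι] {G : Type*} [Group G]
    {S : StSys Φ K G} {τ : (κ → Kˣ) →* G} (hS : S.Nondeg) (hτ : S.IsTor τ) (hH : ∀ c, τ c ∈ S.H) {x : G}
    (hx : x ∈ S.grp) {c d : κ → Kˣ} (e : τ c * x = x * τ d) : ∃ w ∈ Φ.W, ∀ r, Φ.chr c (w r) = Φ.chr d r := by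
  obtain ⟨u, hu, n, hn, w, hw, ha, u', hu', rfl⟩ := hS.exists_bruhat hx
  obtain ⟨-, -, h3, -⟩ := hS.bruhat_unique (n := τ c * n * (τ d)⁻¹)
    (mul_mem (mul_mem (S.H_le_N (hH _)) hn) (inv_mem (S.H_le_N (hH _)))) hn
    (by simpa only [one_mul, mul_one] using
      ((S.acts_of_mem_H (hH c)).mul ha hw).mul (S.acts_of_mem_H (inv_mem (hH _))) (one_mem _))
    ha (S.H_conj_mem_UU (hH c) hu) (S.H_conj_mem_UU (hH d) hu') hu hu'
    (by rw [← mul_left_inj (τ d), ← e]; group)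
  refine ⟨w, hw, Φ.chr_apply_of_simple hw (congrFun (hτ.inj hS ?_))⟩
  rw [← hτ.N_conj hS hn ha, mul_assoc, mul_inv_eq_iff_eq_mul.1 h3, inv_mul_cancel_left]

open Classical in
theorem exists_tor' [Good D] (h : RtOK D) (hm : D ∈ [chevG2, chevB2, chevD4, chevF4, chevE6, chevE7, chevE8])
    [Fintype F] {p : ℕ} [hp : Fact p.Prime] (hF : Fintype.card F = p)
    [IsAlgClosed K] [CharP K p] (hK : ∀ x : K, ∃ m, 0 < m ∧ x ^ p ^ m = x) (g : D.group F) {N : ℕ}
    (hN : ¬ p ∣ N) (e : g ^ N = 1) : ∃ y : Fin D.rank → ℤ,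
      (∃ w ∈ (rootSys h).W, ∀ r, (rootSys h).ip y (w r) ≡ p * (rootSys h).ip y r [ZMOD N]) ∧
      (∀ k : ℕ, fx (ρD D φ) (g ^ k) = D.rank +
        (Finset.univ.filter fun r : Fin D.nroots => (N : ℤ) ∣ k * (rootSys h).ip y r).card) ∧
      ∀ k : ℕ, IsConj g (g ^ k) →
        ∃ w ∈ (rootSys h).W, ∀ r, (rootSys h).ip y (w r) ≡ k * (rootSys h).ip y r [ZMOD N] := by
  set Φ := rootSys h
  have hF' := frob_chev (K := K) h hm p hK
  have hG : ∀ x : D.group F, glm D φ x ∈ (stSys h K).grp := fun x => (stSys_grp h).ge (glm_mem φ x.2)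
  obtain ⟨z, hz, c, n, -, w, hw, -, e1, -, e3, -⟩ := hF'.normal_form one_ne_zero (hG g)
    (glm_frob φ (fun x => by rw [iterateFrobenius_def, hF, pow_one]) _) hN
    (by rw [← map_pow, ← Subgroup.coe_pow, e]; simp)
  rw [pow_one] at e3
  have e4 : ∀ k, glm D φ (g ^ k : D.group F) = z * tau D K (c ^ k) * z⁻¹ := fun k => by
    rw [Subgroup.coe_pow, map_pow, e1, map_pow, conj_pow]
  have e5 : c ^ N = 1 := hF'.isTor.inj hF'.nondeg (by
    have := e4 N
    rw [e, OneMemClass.coe_one, map_one, eq_comm, mul_inv_eq_one, mul_eq_left] at this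
    rw [this, map_one])
  obtain ⟨ζ, hζ⟩ := exists_primitiveRoot_units φ (N := N)
    (by rw [hF]; exact ((Nat.Prime.coprime_iff_not_dvd hp.out).2 hN).symm)
  have : NeZero N := ⟨by rintro rfl; exact hN (dvd_zero p)⟩
  have h7 : ∀ j, ∃ i : ℤ, ζ ^ i = c j := fun j => Subgroup.mem_zpowers_iff.1 (hζ.zpowers_eq ▸ by
    rw [mem_rootsOfUnity, ← Pi.pow_apply, e5, Pi.one_apply])
  choose y hy using h7
  have h8 : ∀ r, ζ ^ Φ.ip y r = Φ.chr c r := fun r => by rw [← Φ.chr_zpow_ip, funext hy]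
  have h9 : ∀ (k : ℕ) (w : Equiv.Perm (Fin D.nroots)), (∀ r, Φ.chr c (w r) = Φ.chr c r ^ k) →
      ∀ r, Φ.ip y (w r) ≡ k * Φ.ip y r [ZMOD N] := fun k w h r => by
    have := (zpow_eq_zpow_iff_modEq (x := ζ) (m := Φ.ip y (w r)) (n := k * Φ.ip y r)).1 (by
      rw [mul_comm, zpow_mul, h8, h8, h, zpow_natCast])
    rwa [← hζ.eq_orderOf] at this
  refine ⟨y, ⟨w, hw, h9 p w e3⟩, fun k => ?_, fun k hk => ?_⟩
  · rw [ρD, fx_comp]
    change fx _ (glm D φ (g ^ k : D.group F)) = _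
    rw [e4, fx_conj, fx_tau h]
    congr 2
    refine Finset.filter_congr fun r _ => ?_
    rw [Φ.chr_pow, ← h8, ← zpow_natCast, ← zpow_mul, hζ.zpow_eq_one_iff_dvd, mul_comm]
  · obtain ⟨x, hx⟩ := isConj_iff.1 hk
    obtain ⟨w, hw, h⟩ := fusion hF'.nondeg hF'.isTor hF'.mem_H (x := z⁻¹ * glm D φ (x⁻¹ : D.group F) * z)
      (mul_mem (mul_mem (inv_mem hz) (hG _)) hz) (c := c) (d := c ^ k) (by
        have h1 := e4 k
        rw [← hx, Subgroup.coe_mul, Subgroup.coe_mul, map_mul, map_mul, e1, Subgroup.coe_inv, map_inv] at h1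
        rw [Subgroup.coe_inv, map_inv, ← mul_left_inj z⁻¹, mul_assoc _ z, mul_assoc _ (z * _), ← h1]
        group)
    exact ⟨w, hw, h9 k w fun r => by rw [h, Φ.chr_pow]⟩

end

/-- the group `E₈(3)` -/
abbrev E := chevE8.group (ZMod 3)

section

attribute [local implicit_reducible] CfsgLib.Block.K

open Cfsg CfsgLib.Block

variable {M : Ideal AlgInt} (hM : IsPModular 3 M)

/-- the adjoint module -/
noncomputable def ρE : Representation (K hM) E (chevE8.Idx → K hM) := ρD chevE8 (ZMod.castHom dvd_rfl (K hM))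

theorem finrank_E : finrank (K hM) (chevE8.Idx → K hM) = 248 := finrank_V

theorem fx_ne {g : E} (hg : g ≠ 1) : fx (ρE hM) g ≠ 248 := fx_ne' _ hg

theorem exists_tor (g : E) {N : ℕ} (hN : ¬ 3 ∣ N) (e : g ^ N = 1) :
    ∃ y, Tor N 3 y (fun k => fx (ρE hM) (g ^ k)) ∧ ∀ k, IsConj g (g ^ k) → Stab N y k := by
  have hm : chevE8 ∈ [chevG2, chevB2, chevD4, chevF4, chevE6, chevE7, chevE8] := by simp
  have := good_of_mem hm
  obtain ⟨y, h1, h2, h3⟩ := exists_tor' (ZMod.castHom dvd_rfl (K hM)) rtOKE8 hm (ZMod.card 3) (fun x => by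
    rcases eq_or_ne x 0 with rfl | hx
    · exact ⟨1, one_pos, by simp⟩
    obtain ⟨m, h1, h2⟩ := exists_pow_eq_one_K hM hx
    have h0 : 0 < m := Nat.pos_of_ne_zero fun e => h1 (e ▸ dvd_zero 3)
    refine ⟨m.totient, Nat.totient_pos.2 h0, ?_⟩
    obtain ⟨c, hc⟩ := (Nat.modEq_iff_dvd' (Nat.one_le_pow _ _ (by decide))).1
      (Nat.ModEq.pow_totient ((Nat.Prime.coprime_iff_not_dvd Nat.prime_three).2 h1)).symm
    rw [← Nat.sub_add_cancel (Nat.one_le_pow m.totient 3 (by decide)), hc, pow_succ, pow_mul, h2, one_pow, one_mul])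
    g hN e
  exact ⟨y, ⟨h1, fun k => (h2 k).trans (congrArg (8 + Finset.card ·) (Finset.filter_congr_decidable _ _ _))⟩, h3⟩

end

end CfsgLib.E83
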