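import Mathlib
import Cfsg.Agent.Lib.E83.Tor

/-!
# Fixed space dimensions of rational semisimple classes of `E₈(3)`
-/

set_option autoImplicit false
set_option maxRecDepth 100000

namespace CfsgLib.E83

variable {y : Fin 8 → ℤ} {f : ℕ → ℕ}

theorem chk122 : enum 122 3 8 (fun c => c == 18) (okc 122 [] fun _ => false) = true := by decide +kernel

theorem Tor.d122 (h : Tor 122 3 y f) : f 1 ≠ 26 := fun e => by
  simpa using h.enum chk122 (by decide) (by decide) (by decide) (by simp [e])

end CfsgLib.E83
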