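import Mathlib
import Cfsg.Agent.Lib.E83.Tor

/-!
# Fixed space dimensions of rational semisimple classes of `E₈(3)`
-/

set_option autoImplicit false
set_option maxRecDepth 100000

namespace CfsgLib.E83

variable {y : Fin 8 → ℤ} {f : ℕ → ℕ}

/-- the conditions on the image of a fundamental root -/
def cnd (N a : ℕ) (v : Fin 240 → ℕ) (l : List (Fin 240 × Fin 8)) (r : Fin 240) (j : Fin 8) : Bool :=
  v r == a * v (Φ.simple j) % N &&
    l.all fun p => Φ.form (Φ.rt p.1) (Φ.rt r) == Φ.form (Φ.rt (Φ.simple p.2)) (Φ.rt (Φ.simple j))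

theorem cnd_spec {N a : ℕ} (hN : 0 < N) {z : Fin 8 → ℕ} (hz : ∀ i, z i ≤ 500) {u : Equiv.Perm (Fin 240)}
    (hu : u ∈ Φ.W) (h : ∀ r, Φ.ip (fun j => z j) (u r) ≡ a * Φ.ip (fun j => z j) r [ZMOD N]) (L : List (Fin 8))
    (j : Fin 8) : cnd N a (vz N z ·) (L.map fun i => (u (Φ.simple i), i)) (u (Φ.simple j)) j := by
  simp [cnd, vz_perm hN hz h, Φ.form_apply hu]

theorem eq_vec (z : Fin 8 → ℕ) : z = ![z 0, z 1, z 2, z 3, z 4, z 5, z 6, z 7] := by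
  funext i; fin_cases i <;> rfl

theorem chk41 : enum 41 6 35 (fun c => c % 40 == 0) (fun a b c d e f g h => cn 41 1 a b c d e f g h = 240 ∨
    ![a, b, c, d, e, f, g, h] ∈ [![2, 1, 1, 1, 1, 1, 2, 4], ![3, 2, 1, 1, 1, 1, 1, 1]]) = true := by
  decide +kernel

set_option synthInstance.maxSize 1024 in
theorem chk41' : ∀ z ∈ [![2, 1, 1, 1, 1, 1, 2, 4], ![3, 2, 1, 1, 1, 1, 1, 1]], ∀ d, cnd 41 6 (vz 41 z ·) [] d 3 →
    ∀ c, cnd 41 6 (vz 41 z ·) [(d, 3)] c 2 → ∀ e, cnd 41 6 (vz 41 z ·) [(d, 3), (c, 2)] e 4 →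
    ∀ b, cnd 41 6 (vz 41 z ·) [(d, 3), (c, 2), (e, 4)] b 1 → ∀ f, ¬ cnd 41 6 (vz 41 z ·) [(d, 3), (c, 2), (e, 4), (b, 1)] f 5 := by
  decide +kernel

theorem Tor.d41 (h : Tor 41 6 y f) : f 1 = 248 := by
  have h2 := h.modEq (by decide) (by decide) (by decide) (k₁ := 1) (k₂ := 0) (d := 40) (one_dvd _)
    [1] (by decide +kernel)
  obtain ⟨z, h3, h4⟩ := h.alc (by decide)
  have hz := h3.le (by decide)
  rw [h.zero, Nat.ModEq, h4.fx] at h2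
  have h5 := enum_spec chk41 (by decide) (by decide) (by decide) h3 h4.stab (by simp; omega)
  rw [decide_eq_true_eq, cn_eq (by decide) hz, ← eq_vec] at h5
  rcases h5 with h5 | h5
  · rw [h4.fx, h5]
  obtain ⟨u, hu, h6⟩ := h4.stab
  have h7 := cnd_spec (by decide) hz hu h6
  exact absurd (h7 [3, 2, 4, 1] 5) (chk41' z h5 _ (h7 [] 3) _ (h7 [3] 2) _ (h7 [3, 2] 4) _ (h7 [3, 2, 4] 1) _)

end CfsgLib.E83
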