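import Mathlib
import Cfsg.Agent.Lib.E83.D41

/-!
# Fixed space dimensions of rational semisimple classes of `E₈(3)`
-/

set_option autoImplicit false
set_option maxRecDepth 100000

namespace CfsgLib.E83

variable {y : Fin 8 → ℤ} {f : ℕ → ℕ}

theorem chk13 : enum 13 3 8 (fun c => c == 12)
    (fun a b c d e f g h => ![a, b, c, d, e, f, g, h] = ![1, 1, 0, 0, 1, 0, 0, 1]) = true := by decide +kernel

/-- the values of the roots at the point with centraliser of type `A₂ A₂` -/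
def v13 (r : Fin 240) : ℕ := Nat.mod (Nat.shiftRight 0xcbbbaaa99988879887776877767776665655666555454455454443335545444333433323222111443433322232221322211211100211102111100101c0c00ccccb0cccb00cccbccbbbacbbbabbbaaa9a99cccbbbabaaa9aaa9998988aaa99989889989888777887877766676665766655465554443332221 (Nat.mul 4 r)) 16

theorem v13_eq : (fun r : Fin 240 => vz 13 ![1, 1, 0, 0, 1, 0, 0, 1] r) = v13 :=
  funext (by decide +kernel)

/-- the statement to be checked -/
def P20 (c : Fin 240) : Prop := cnd 13 3 v13 [] c 2 → ∀ d, cnd 13 3 v13 [(c, 2)] d 3 →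
    ∀ a, cnd 13 3 v13 [(c, 2), (d, 3)] a 0 → ∀ b, cnd 13 3 v13 [(c, 2), (d, 3), (a, 0)] b 1 →
    ∀ e, cnd 13 3 v13 [(c, 2), (d, 3), (a, 0), (b, 1)] e 4 →
    ∀ f, cnd 13 3 v13 [(c, 2), (d, 3), (a, 0), (b, 1), (e, 4)] f 5 →
    ∀ g, cnd 13 3 v13 [(c, 2), (d, 3), (a, 0), (b, 1), (e, 4), (f, 5)] g 6 →
    ∀ h, cnd 13 3 v13 [(c, 2), (d, 3), (a, 0), (b, 1), (e, 4), (f, 5), (g, 6)] h 7 → ∀ j,
      Semi.horL (fun j => Φ.rt (![a, b, c, d, e, f, g, h] j)) j [-1, -1, 0, 1, 1] (·.all (· == 0))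

set_option synthInstance.maxSize 1024 in
noncomputable instance (c : Fin 240) : Decidable (P20 c) := by unfold P20; infer_instance

theorem chk20a : ∀ c : Fin 240, c.1 < 110 → P20 c := by decide +kernel

theorem chk20b : ∀ c : Fin 240, 110 ≤ c.1 → c.1 < 120 → P20 c := by decide +kernel

theorem chk20c : ∀ c : Fin 240, 120 ≤ c.1 → c.1 < 130 → P20 c := by decide +kernel

theorem chk20d : ∀ c : Fin 240, 130 ≤ c.1 → P20 c := by decide +kernel

theorem chk20 (c : Fin 240) : P20 c := by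
  rcases lt_or_ge c.1 120 with h | h
  · rcases lt_or_ge c.1 110 with h' | h'
    exacts [chk20a c h', chk20b c h' h]
  · rcases lt_or_ge c.1 130 with h' | h'
    exacts [chk20c c h h', chk20d c h']

theorem Tor.d20 (h : Tor 91 3 y f) (h1 : f 7 = 20) : f 13 = 248 := by
  obtain ⟨y', z, h2, h3, h4⟩ := h.alcove (N₁ := 13) (by decide)
  have h5 := (Tor.res (m := 7) (N := 13) (by decide) h2).congr h3
  have h6 := enum_spec chk13 (by decide) (by decide) (by decide) h4 h5.stab (by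
    have := h5.fx 1
    rw [mul_one, h1] at this
    simp; omega)
  rw [decide_eq_true_eq, ← eq_vec] at h6
  obtain ⟨u, hu, h7⟩ := h2.stab
  have h10 := cnd_spec (N := 13) (a := 3) (by decide) (h4.le (by decide)) hu fun r =>
    (ip_modEq h3 _).symm.trans (((h7 r).of_dvd (by decide)).trans ((ip_modEq h3 r).mul_left _))
  rw [h6, v13_eq] at h10
  have h11 : Semi.Ann Φ u [-1, -1, 0, 1, 1] := by
    refine Semi.ann_of_horL hu ?_
    have := chk20 _ (h10 [] 2) _ (h10 [2] 3) _ (h10 [2, 3] 0) _ (h10 [2, 3, 0] 1) _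
      (h10 [2, 3, 0, 1] 4) _ (h10 [2, 3, 0, 1, 4] 5) _ (h10 [2, 3, 0, 1, 4, 5] 6) _ (h10 [2, 3, 0, 1, 4, 5, 6] 7)
    convert this using 4 with e j
    fin_cases j <;> rfl
  rw [h2.fx, cnt_of_dvd fun j => ?_]
  have h12 : ∀ k, Φ.ip y' ((u ^ k) (Φ.simple j)) ≡ 3 ^ k * y' j [ZMOD 91] := fun k => by
    induction k with
    | zero => simp [Φ.ip_simple]
    | succ k ih =>
      rw [pow_succ', pow_succ', mul_assoc]
      exact (h7 _).trans (ih.mul_left _)
  have h13 : ∑ k ∈ Finset.range 5, [-1, -1, 0, 1, 1].getD k 0 * Φ.ip y' ((u ^ k) (Φ.simple j)) = 0 := by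
    simp only [RGD.RootSys.ip, Finset.mul_sum, ← mul_assoc]
    rw [Finset.sum_comm]
    simp only [← Finset.sum_mul]
    exact Finset.sum_eq_zero fun i _ => mul_eq_zero_of_left (h11 j i) _
  have := h12 0; have := h12 1; have := h12 3; have := h12 4
  simp [Finset.sum_range_succ, Int.ModEq] at *
  omega

end CfsgLib.E83
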