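import Mathlib
import Cfsg.Agent.Lib.E83.Tor

/-!
# Fixed space dimensions of rational semisimple classes of `E₈(3)`
-/

set_option autoImplicit false
set_option maxRecDepth 100000

namespace CfsgLib.E83

variable {y : Fin 8 → ℤ} {f : ℕ → ℕ}

theorem chk91 : enum 91 3 8 (fun c => Nat.ble 16 c && c % 3 == 0)
    (okc 91 [7, 13] fun l => l.any (· == 248)) = true := by decide +kernel

theorem Tor.d91 (h : Tor 91 3 y f) (h1 : 24 ≤ f 1) : f 7 = 248 ∨ f 13 = 248 := by
  have h2 := h.modEq (by decide) (by decide) (by decide) (k₁ := 1) (k₂ := 0) (d := 3) (one_dvd _)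
    [1, 27, 2, 54, 4, 17, 5, 44, 7, 8, 34, 10, 88, 13, 78, 14, 16, 68, 19, 58, 20, 85, 23, 75, 28, 29, 55, 46, 59, 49] (by decide +kernel)
  rw [h.zero, Nat.ModEq] at h2
  simpa using h.enum chk91 (by decide) (by decide) (by decide) (by simp; omega)

end CfsgLib.E83
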