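import Mathlib
import Cfsg.Agent.Lib.E83.Brauer
import Cfsg.Agent.Lib.Block.Span
import Cfsg.Agent.Lib.SL2.Cusp
import Cfsg.Agent.Lib.SL2.Normalizer
import Cfsg.Agent.Lib.SL2.PSL
import Cfsg.Agent.Lib.SL2.Unip
import Cfsg.Agent.Lib.SL2.CharTable

/-!
# The Steinberg identity for fixed spaces of the two tori of `SL₂(q)` in defining characteristic
-/

set_option autoImplicit false
set_option linter.unusedSectionVars false

namespace CfsgLib.E83

attribute [local implicit_reducible] CfsgLib.Block.K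

open Cfsg CfsgLib.Char CfsgLib.Block MonoidAlgebra CfsgLib.SL2 Module Matrix MatrixGroups
open scoped ComplexConjugate

section fixed

variable {k G V : Type*} [Field k] [Group G] [AddCommGroup V] [Module k V]

theorem fx_eq_of_zpowers (ρ : Representation k G V) {g h : G} (e : Subgroup.zpowers g = Subgroup.zpowers h) :
    fx ρ g = fx ρ h := by
  rw [fx, fx, fxS, fxS, fix_congr ρ (S := {g}) (T := {h})]
  · rw [← Subgroup.zpowers_eq_closure, ← e]; simp
  · rw [← Subgroup.zpowers_eq_closure, e]; simp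

theorem fxS_eq_fx (ρ : Representation k G V) {S : Set G} {g : G} (h : S = Subgroup.zpowers g) : fxS ρ S = fx ρ g := by
  rw [h, Subgroup.zpowers_eq_closure, fxS, fix_closure]; rfl

end fixed

theorem zpowers_eq_of_orderOf {A : Type*} [Group A] [Finite A] [IsCyclic A] {a b : A} (h : orderOf a = orderOf b) :
    Subgroup.zpowers a = Subgroup.zpowers b := by
  classical
  have := Fintype.ofFinite A
  have key : ∀ x : A, (Subgroup.zpowers x : Set A) = {y | y ^ orderOf x = 1} := fun x => by
    refine Set.eq_of_subset_of_ncard_le ?_ ?_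
    · rintro _ ⟨n, rfl⟩
      simp only [Set.mem_ofPred_eq]
      rw [← zpow_natCast, ← _root_.zpow_mul, mul_comm, _root_.zpow_mul, zpow_natCast, pow_orderOf_eq_one, _root_.one_zpow]
    · have h1 := IsCyclic.card_pow_eq_one_le (α := A) (orderOf_pos x)
      rw [← Set.ncard_coe_finset, Finset.coe_filter_univ] at h1
      refine h1.trans_eq ?_
      rw [← Nat.card_zpowers]; rfl
  exact SetLike.coe_injective (by rw [key, key, h])

variable {F : Type*} [Field F] [Fintype F] [DecidableEq F]

theorem stein_eq {d : SL(2, F)} (hd : NoEig d) :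
    (2 : ℂ) • (stein : SL(2, F) → ℂ) = stein * prin 1 - indT (1 : Tor d →* ℂˣ) := by
  have hc : IsClassFunction _ (indT (1 : Tor d →* ℂˣ)) :=
    isClassFunction_of_isGenChar (isGenChar_of_isCharacter (isCharacter_indT _))
  refine classFun_ext_tor hd (fun g h => by simp only [Pi.smul_apply, isClassFunction_stein g h])
    (fun g h => by simp only [Pi.sub_apply, Pi.mul_apply, isClassFunction_stein g h, isClassFunction_prin _ g h,
      hc g h]) (fun a b => ?_) fun c hc => ?_
  · simp only [Pi.smul_apply, Pi.sub_apply, Pi.mul_apply, smul_eq_mul]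
    by_cases ha : (a : F) ^ 2 = 1
    · by_cases hb : b = 0
      · have h1 : IsScal (dg a) := (isScal_dg_iff a).2 ha
        have := indT_scal hd (1 : Tor d →* ℂˣ) (z := ⟨dg a, h1.mem_tor d⟩) h1
        rw [hb, uu_zero, mul_one, this, stein_scal ha, prin_scal _ ha, lin_one_eq, lin_one_eq]; ring
      · rw [stein_unip ha hb, indT_upper hd _ (not_isScal_scal_mul_uu ((isScal_dg_iff a).2 ha) hb) (dg_uu_10 a b)]
        simp
    · rw [stein_split ha, prin_split _ ha, lin_one_eq, indT_upper hd _ (fun h => ha (by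
        simpa [dg_uu_00] using h.sq_eq)) (dg_uu_10 a b)]
      norm_num
  · simp only [Pi.smul_apply, Pi.sub_apply, Pi.mul_apply, smul_eq_mul]
    rw [stein_noEig (hd.tor c hc), prin_noEig _ (hd.tor c hc), indT_tor hd _ hc, lin_one_eq]
    norm_num

theorem inner_stein {d : SL(2, F)} (hd : NoEig d) {β : SL(2, F) → ℂ} (hβ : IsClassFunction _ β) :
    2 * classInner β stein = (Nat.card Fˣ : ℂ)⁻¹ * ∑ a : Fˣ, β (dg a) - (Nat.card (Tor d) : ℂ)⁻¹ * ∑ c : Tor d, β c := by
  have h1 : 2 * classInner β stein = classInner (β * stein) (prin 1) - classInner β (indT (1 : Tor d →* ℂˣ)) := by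
    simp only [classInner_def]
    rw [← mul_sub, ← Finset.sum_sub_distrib, mul_left_comm, Finset.mul_sum]
    congr 1
    refine Finset.sum_congr rfl fun g _ => ?_
    have := congrArg conj (congrFun (stein_eq hd) g)
    simp only [Pi.smul_apply, Pi.sub_apply, Pi.mul_apply, smul_eq_mul, map_mul, map_sub, conj_stein, map_ofNat] at this
    rw [Pi.mul_apply, conj_stein, mul_left_comm, this]; ring
  rw [h1, inner_prin (fun g h => by simp only [Pi.mul_apply, isClassFunction_stein g h, hβ g h]), indT,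
    classInner_indFun_right _ _ hβ, classInner_def, classInner_def, lin_one_eq, lin_one_eq]
  simp only [map_one, mul_one]
  congr 3
  funext a
  by_cases ha : (a : F) ^ 2 = 1
  · refine mul_left_cancel₀ (cast_card_ne_zero (F := F)) ?_
    rw [hc_of_unip (c := 0) fun b hb => by rw [Pi.mul_apply, stein_unip ha hb, mul_zero], Pi.mul_apply, stein_scal ha]
    ring
  · rw [hc_split (fun g h => by simp only [Pi.mul_apply, isClassFunction_stein g h, hβ g h]) ha, Pi.mul_apply]
    have := stein_split ha (0 : F)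
    rw [uu_zero, mul_one] at this
    rw [this, mul_one]

variable {p : ℕ} {M : Ideal AlgInt} {hM : IsPModular p M}
  {V : Type*} [AddCommGroup V] [Module (K hM) V] [FiniteDimensional (K hM) V]

theorem stein_fx [CharP F p] (ρ : Representation (K hM) SL(2, F) V) : ∃ a c : SL(2, F),
    orderOf a = Fintype.card F - 1 ∧ orderOf c = Fintype.card F + 1 ∧
      ∃ R ≤ finrank (K hM) V, Fintype.card F * fx ρ a = Fintype.card F * fx ρ c + 2 * R := by
  have hp := hM.1
  have : Fact p.Prime := ⟨hp⟩
  obtain ⟨β, hβ⟩ := exists_brauer ρ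
  obtain ⟨d, hd⟩ := exists_noEig (F := F)
  obtain ⟨a, ha⟩ := IsCyclic.exists_generator (α := Fˣ)
  have := hd.isCyclic_centralizer
  obtain ⟨c, hc⟩ := IsCyclic.exists_generator (α := Tor d)
  have hr : ringChar F = p := ringChar.eq F p
  have h1 : ¬ p ∣ Fintype.card F - 1 := (Nat.Prime.coprime_iff_not_dvd hp).1 (hr ▸ coprime_ringChar_card_sub_one)
  have h2 : ¬ p ∣ Fintype.card F + 1 := (Nat.Prime.coprime_iff_not_dvd hp).1 (hr ▸ coprime_ringChar_card_add_one)
  have h3 : Fintype.card (Tor d) = Fintype.card F + 1 := by rw [← Nat.card_eq_fintype_card, hd.card_centralizer]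
  let χ : IrrCharacter SL(2, F) := ⟨stein, isIrr_stein⟩
  have h4 : blockIdem {χ} ∈ OG hM SL(2, F) := blockIdem_singleton_mem_OG hM (by
    have h5 : Fintype.card F - 1 ≠ 0 := fun e => h1 (e ▸ dvd_zero p)
    rw [show charDegree (χ : SL(2, F) → ℂ) = Fintype.card F from charDegree_eq_of_eq stein_one, card_SL2', Nat.factorization_mul (by positivity)
      (by positivity), Nat.factorization_mul (by positivity) h5, Finsupp.add_apply, Finsupp.add_apply,
      Nat.factorization_eq_zero_of_not_dvd h1, Nat.factorization_eq_zero_of_not_dvd h2]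
    rfl)
  refine ⟨dg a, c, ?_, ?_, _, rk_le ρ.asAlgebraHom (redA hM (blockIdem {χ})), ?_⟩
  · rw [← dgHom_apply, orderOf_injective dgHom dg_injective, orderOf_eq_card_of_forall_mem_zpowers ha, card_units_eq]
  · rw [Subgroup.orderOf_coe, orderOf_eq_card_of_forall_mem_zpowers hc, Nat.card_eq_fintype_card, h3]
  have h5 := hβ.2 _ h4 (blockIdem_mul_self _)
  have h6 : chiA β (blockIdem {χ}) = Fintype.card F * classInner β stein := by
    rw [chiA_apply, classInner_def, Finset.mul_sum, Finset.mul_sum]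
    refine Finset.sum_congr rfl fun g _ => ?_
    rw [coeff_blockIdem, blockCoeff_singleton]
    change _ * (stein 1 * conj (stein g)) * _ = _
    rw [stein_one]; ring
  have h7 := hβ.sum_hom (dgHom : Fˣ →* SL(2, F)) (by rwa [Fintype.card_units])
  have h8 := hβ.sum_hom (Tor d).subtype (by rwa [h3])
  rw [fxS_eq_fx ρ (g := dg a) (by
    rw [← dgHom_apply, ← MonoidHom.map_zpowers, (Subgroup.eq_top_iff' _).2 ha, ← MonoidHom.range_eq_map]; rfl)] at h7
  rw [fxS_eq_fx ρ (g := c) (by
    rw [← Subgroup.subtype_apply, ← MonoidHom.map_zpowers, (Subgroup.eq_top_iff' _).2 hc, ← MonoidHom.range_eq_map]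
    rfl)] at h8
  have h9 := inner_stein hd hβ.isClass
  simp only [dgHom_apply, Subgroup.subtype_apply] at h7 h8
  rw [h7, h8, Nat.card_eq_fintype_card, Nat.card_eq_fintype_card, inv_mul_cancel_left₀ (by simp),
    inv_mul_cancel_left₀ (by simp)] at h9
  have : (Fintype.card F * fx ρ (dg a) : ℂ) = Fintype.card F * fx ρ c + 2 * rk ρ.asAlgebraHom (redA hM (blockIdem {χ})) := by
    rw [← h5, h6]; linear_combination (-(Fintype.card F : ℂ)) * h9
  exact_mod_cast this

omit [FiniteDimensional (K hM) V] in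
theorem fx_eq_of_orderOf {k : Type*} [Field k] [Module k V] (ρ : Representation k SL(2, F) V) {g h : SL(2, F)}
    (e : orderOf g = orderOf h) (h2 : ¬ orderOf g ∣ 2) (hp : (orderOf g).Coprime (ringChar F))
    (hq : ¬ orderOf g ∣ Fintype.card F + 1) : fx ρ g = fx ρ h := by
  obtain ⟨a, -, ha⟩ := split_of_orderOf h2 hp hq
  obtain ⟨b, -, hb⟩ := split_of_orderOf (e ▸ h2) (e ▸ hp) (e ▸ hq)
  rw [← fx_of_isConj ρ ha, ← fx_of_isConj ρ hb]
  refine fx_eq_of_zpowers ρ ?_
  rw [← dgHom_apply, ← dgHom_apply, ← MonoidHom.map_zpowers, ← MonoidHom.map_zpowers, zpowers_eq_of_orderOf]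
  rw [← orderOf_injective dgHom dg_injective, ← orderOf_injective dgHom dg_injective b, dgHom_apply, dgHom_apply,
    orderOf_eq_of_isConj ha, orderOf_eq_of_isConj hb, e]

theorem tr_eq_zero_of_orderOf (h3 : (2 : F) ≠ 0) {g : SL(2, F)} (h : orderOf g = 4) : tr g = 0 := by
  have h1 : g ^ 4 = 1 := h ▸ pow_orderOf_eq_one g
  have h2 : g ^ 2 ≠ 1 := fun e => absurd (h ▸ orderOf_dvd_of_pow_eq_one e) (by decide)
  refine (sq_eq_neg_one_of_isScal_sq (fun hs => h2 ?_) ((sq_eq_one_iff_isScal h3 _).1 ?_)).1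
  · rcases (isScal_iff g).1 hs with rfl | rfl <;> simp
  · rw [← h1]; simp [pow_succ, mul_assoc]

theorem exists_mul_tr_zero {g : SL(2, F)} (hg : tr g ^ 2 ≠ 4) : ∃ s t : SL(2, F), tr s = 0 ∧ tr t = 0 ∧ g = s * t := by
  obtain ⟨n, hn⟩ := exists_inverts hg
  refine ⟨n⁻¹, n * g, by rw [tr_inv, (sq_eq_neg_one_of_inverts hg hn).1],
    (sq_eq_neg_one_of_inverts hg ?_).1, by group⟩
  rw [← hn]; group

theorem tr_sq_ne_of_orderOf {g : SL(2, F)} (h2 : ¬ orderOf g ∣ 2) (hp : (orderOf g).Coprime (ringChar F)) :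
    tr g ^ 2 ≠ 4 := by
  by_cases hq : orderOf g ∣ Fintype.card F - 1
  · by_cases hq' : orderOf g ∣ Fintype.card F + 1
    · refine absurd ?_ h2
      have := (Nat.dvd_sub hq' hq)
      have h1 := Fintype.card_pos (α := F)
      rwa [show Fintype.card F + 1 - (Fintype.card F - 1) = 2 by omega] at this
    · obtain ⟨a, h1, ha⟩ := split_of_orderOf h2 hp hq'
      rw [← tr_of_isConj ha]; exact tr_dg_sq_ne h1
  · exact (noEig_of_orderOf h2 hp hq).tr_sq_ne

end CfsgLib.E83
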