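import Mathlib
import Cfsg.Agent.Lib.E83.St
import Cfsg.Agent.Lib.E83.Data
import Cfsg.Agent.Lib.E83.D20
import Cfsg.Agent.Lib.E83.D91
import Cfsg.Agent.Lib.E83.D122

/-!
# The groups `L₂(243)`, `L₂(729)` and `L₂(41)` do not embed in `E₈(3)`
-/

set_option autoImplicit false
set_option linter.unusedSectionVars false

namespace CfsgLib.E83

attribute [local implicit_reducible] CfsgLib.Block.K

open Cfsg CfsgLib.Block CfsgLib.SL2 Module Matrix MatrixGroups

variable {F : Type*} [Field F] [Fintype F] [DecidableEq F]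

theorem exists_hom {G : Type*} [Group G] (H : Subgroup G) (e : H ≃* PSL(2, F)) :
    ∃ ψ : SL(2, F) →* G, ∀ g, ψ g = 1 ↔ IsScal g :=
  ⟨H.subtype.comp (e.symm.toMonoidHom.comp pm), fun g => by
    rw [← pm_eq_one_iff]
    simp⟩

variable {ψ : SL(2, F) →* E} (hψ : ∀ g, ψ g = 1 ↔ IsScal g) {M : Ideal AlgInt} (hM : IsPModular 3 M)

include hψ in
theorem pow_eq_one_iff (h2 : (2 : F) ≠ 0) (g : SL(2, F)) (k : ℕ) : ψ g ^ k = 1 ↔ orderOf g ∣ 2 * k := by
  rw [← map_pow, hψ, ← sq_eq_one_iff_isScal h2, ← pow_add, orderOf_dvd_iff_pow_eq_one, two_mul]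

theorem dihedral (h2 : (2 : F) ≠ 0) {g u : SL(2, F)} (hg : tr g ^ 2 ≠ 4) (hu : tr u = 0) :
    2 * fx (ρE hM) (ψ u) ≤ 248 + fx (ρE hM) (ψ g) := by
  obtain ⟨s, t, hs, ht, rfl⟩ := exists_mul_tr_zero hg
  have h4 : tr u ^ 2 ≠ 4 := by
    rw [hu, show (4 : F) = 2 * 2 by norm_num]
    simpa using h2
  have h1 := fx_mul_ge (ρE hM) (ψ s) (ψ t)
  rw [← fx_of_isConj _ (ψ.map_isConj (isConj_of_tr_eq h4 (hu.trans hs.symm))),
    ← fx_of_isConj _ (ψ.map_isConj (isConj_of_tr_eq h4 (hu.trans ht.symm))), finrank_E, ← map_mul] at h1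
  omega

theorem two_ne_zero_three [CharP F 3] : (2 : F) ≠ 0 := by
  have := (CharP.cast_eq_zero_iff F 3 2).not.2 (by decide)
  simpa using this

include hψ in
theorem no243 (hF : Fintype.card F = 243) : False := by
  obtain ⟨M, hM⟩ := exists_isPModular' Nat.prime_three
  have : Fact (Nat.Prime 3) := ⟨Nat.prime_three⟩
  have : CharP F 3 := charP_of_card_eq_prime_pow (f := 5) hF
  have h2 := two_ne_zero_three (F := F)
  obtain ⟨a, c, ha, hc, R, hR, h⟩ := stein_fx ((ρE hM).comp ψ)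
  rw [hF] at ha hc h
  rw [fx_comp, fx_comp] at h
  rw [finrank_E] at hR
  have hp := pow_eq_one_iff hψ h2
  obtain ⟨y, h1, -⟩ := exists_tor hM (ψ a) (N := 121) (by decide) (by rw [hp, ha])
  obtain ⟨y', h3, -⟩ := exists_tor hM (ψ c) (N := 122) (by decide) (by rw [hp, hc])
  have h4 := h1.d121
  have h5 := (Tor.res (m := 11) (N := 11) (by decide) h1).d11
  have h6 := fx_ne hM (g := ψ a ^ 11) (by rw [Ne, hp, ha]; decide)
  have h7 := fx_le_pow (ρE hM) (ψ a) 11
  have h8 := h3.d122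
  have h9 := h3.m122
  have h10 := (Tor.res (m := 61) (N := 2) (by decide) h3).d2
  have h11 := fx_ne hM (g := ψ c ^ 61) (by rw [Ne, hp, hc]; decide)
  have h12 := dihedral (ψ := ψ) hM h2 (g := c) (u := c ^ 61) (tr_sq_ne_of_orderOf (by rw [hc]; decide)
    (by rw [hc, ringChar.eq F 3]; decide)) (tr_eq_zero_of_orderOf h2 (by rw [orderOf_pow, hc]; decide))
  simp only [pow_one, mul_one, map_pow] at *
  omega

include hψ in
theorem no729 (hF : Fintype.card F = 729) : False := by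
  classical
  obtain ⟨M, hM⟩ := exists_isPModular' Nat.prime_three
  have : Fact (Nat.Prime 3) := ⟨Nat.prime_three⟩
  have : CharP F 3 := charP_of_card_eq_prime_pow (f := 6) hF
  have h2 := two_ne_zero_three (F := F)
  let _ := ZMod.algebra F 3
  have := Fintype.ofFinite (GaloisField 3 3)
  have hF' : Fintype.card (GaloisField 3 3) = 27 := by
    rw [← Nat.card_eq_fintype_card, GaloisField.card 3 3 (by decide)]; rfl
  obtain ⟨φ⟩ := FiniteField.nonempty_algHom_of_finrank_dvd (F := ZMod 3) (K := GaloisField 3 3) (L := F) (by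
    have := Module.card_eq_pow_finrank (K := ZMod 3) (V := F)
    rw [hF, ZMod.card, show 729 = 3 ^ 6 from rfl, Nat.pow_right_inj (by decide)] at this
    rw [← this, GaloisField.finrank 3 (by decide)]
    decide)
  let ι : SL(2, GaloisField 3 3) →* SL(2, F) := Matrix.SpecialLinearGroup.map φ.toRingHom
  have hι : Function.Injective ι := fun g h e =>
    Subtype.ext (Matrix.map_injective φ.toRingHom.injective (congrArg Subtype.val e))
  obtain ⟨a, c, ha, hc, R, hR, h⟩ := stein_fx (((ρE hM).comp ψ).comp ι)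
  obtain ⟨x, -, hx, -⟩ := stein_fx ((ρE hM).comp ψ)
  rw [hF'] at ha hc h
  rw [hF] at hx
  rw [← orderOf_injective ι hι] at ha hc
  rw [fx_comp _ ι, fx_comp _ ι, fx_eq_of_orderOf _ (g := ι a) (h := x ^ 28) (by rw [ha, orderOf_pow, hx]; decide) (by rw [ha]; decide)
    (by rw [ha, ringChar.eq F 3]; decide) (by rw [ha, hF]; decide),
    fx_eq_of_orderOf _ (g := ι c) (h := x ^ 26) (by rw [hc, orderOf_pow, hx]; decide) (by rw [hc]; decide)
    (by rw [hc, ringChar.eq F 3]; decide) (by rw [hc, hF]; decide), fx_comp, fx_comp] at h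
  rw [finrank_E] at hR
  have hp := pow_eq_one_iff hψ h2
  obtain ⟨y, h1, -⟩ := exists_tor hM (ψ x) (N := 364) (by decide) (by rw [hp, hx])
  have h3 := (Tor.res (m := 182) (N := 2) (by decide) h1).d2
  have h4 := (Tor.res (m := 4) (N := 91) (by decide) h1).d91
  have h5 := (Tor.res (m := 4) (N := 91) (by decide) h1).d20
  have h6 := (Tor.res (m := 26) (N := 14) (by decide) h1).d14
  have h7 := (Tor.res (m := 14) (N := 26) (by decide) h1).d26
  have h8 := fx_ne hM (g := ψ x ^ 182) (by rw [Ne, hp, hx]; decide)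
  have h9 := fx_ne hM (g := ψ x ^ 28) (by rw [Ne, hp, hx]; decide)
  have h10 := fx_ne hM (g := ψ x ^ 52) (by rw [Ne, hp, hx]; decide)
  have h12 := dihedral (ψ := ψ) hM h2 (g := x ^ 4) (u := x ^ 182) (tr_sq_ne_of_orderOf
    (by rw [orderOf_pow, hx]; decide) (by rw [orderOf_pow, hx, ringChar.eq F 3]; decide))
    (tr_eq_zero_of_orderOf h2 (by rw [orderOf_pow, hx]; decide))
  simp only [mul_one, map_pow, Nat.reduceMul] at *
  omega

include hψ in
theorem no41 (hF : Fintype.card F = 41) : False := by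
  obtain ⟨M, hM⟩ := exists_isPModular' Nat.prime_three
  have : Fact (Nat.Prime 41) := ⟨by norm_num⟩
  have : CharP F 41 := charP_of_card_eq_prime (p := 41) hF
  have h0 : orderOf (uu (1 : F)) = 41 := orderOf_uu 41 one_ne_zero
  obtain ⟨y, h1, h2⟩ := exists_tor hM (ψ (uu 1)) (N := 41) (by decide) (by rw [← map_pow, ← h0, pow_orderOf_eq_one, map_one])
  have h41 : (41 : F) = 0 := by exact_mod_cast CharP.cast_eq_zero F 41
  have h3 := h2 2 (by
    rw [← map_pow, uu_pow]
    refine ψ.map_isConj ((isConj_uu_iff one_ne_zero).2 ⟨?_, 17, ?_⟩)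
    · simpa using (CharP.cast_eq_zero_iff F 41 2).not.2 (by decide)
    · push_cast; linear_combination (-7) * h41)
  have h4 := Tor.d41 ⟨h3.mul h1.stab, h1.fx⟩
  rw [pow_one] at h4
  refine fx_ne hM (fun e => ?_) h4
  simpa using not_isScal_scal_mul_uu isScal_one (one_ne_zero (α := F)) (by rw [one_mul]; exact (hψ _).1 e)

end CfsgLib.E83
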