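import Mathlib
import Cfsg.Agent.Lib.E83.L2

/-!
# The group `L₂(32)` does not embed in `E₈(3)`
-/

set_option autoImplicit false
set_option linter.unusedSectionVars false

namespace CfsgLib.E83

attribute [local implicit_reducible] CfsgLib.Block.K

open Cfsg CfsgLib.Block CfsgLib.SL2 CfsgLib.Char CfsgLib.ModRep CfsgLib.Blk Module Matrix MatrixGroups MonoidAlgebra

section lin

variable {k G V : Type*} [Field k] [Group G] [AddCommGroup V] [Module k V] [FiniteDimensional k V]

theorem finrank_ker_mul_le (f g : Module.End k V) :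
    finrank k (LinearMap.ker (f * g)) ≤ finrank k (LinearMap.ker f) + finrank k (LinearMap.ker g) := by
  rw [← LinearMap.finrank_range_add_finrank_ker (g.domRestrict (LinearMap.ker (f * g)))]
  refine add_le_add (Submodule.finrank_mono ?_) ?_
  · rintro _ ⟨v, rfl⟩
    exact v.2
  · rw [← Submodule.finrank_map_subtype_eq]
    refine Submodule.finrank_mono ?_
    rintro _ ⟨v, hv, rfl⟩
    exact hv

omit [FiniteDimensional k V] in
theorem fix_eq_ker (ρ : Representation k G V) (g : G) : fix ρ {g} = LinearMap.ker (ρ g - 1) := by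
  ext v
  rw [mem_fix_single, LinearMap.mem_ker, LinearMap.sub_apply, sub_eq_zero]; rfl

theorem fx_cube_le [CharP k 3] (ρ : Representation k G V) (g : G) : fx ρ (g ^ 3) ≤ 3 * fx ρ g := by
  have h3 : (3 : Module.End k V) = 0 := by
    have := map_natCast (algebraMap k (Module.End k V)) 3
    rw [CharP.cast_eq_zero, map_zero] at this
    exact this.symm
  have : ρ (g ^ 3) - 1 = (ρ g - 1) * (ρ g - 1) * (ρ g - 1) := by
    rw [map_pow]
    have : (ρ g - 1) * (ρ g - 1) * (ρ g - 1) = ρ g ^ 3 - 1 - 3 * (ρ g * ρ g - ρ g) := by noncomm_ring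
    rw [this, h3, zero_mul, sub_zero]
  rw [fx, fx, fxS, fxS, fix_eq_ker, fix_eq_ker, this]
  have h1 := finrank_ker_mul_le ((ρ g - 1) * (ρ g - 1)) (ρ g - 1)
  have h2 := finrank_ker_mul_le (ρ g - 1) (ρ g - 1)
  omega

/-- the trick of Gelfand for a simple module -/
theorem fx_le_one [Fintype G] (ρ : Representation k G V) (hs : ∀ X : Module.End k V, ∃ b : G → k, X = ∑ h, b h • ρ h)
    {c : G} (hc : ∀ g : G, ∃ s ∈ Subgroup.zpowers c, ∃ t ∈ Subgroup.zpowers c, g⁻¹ = s * g * t) : fx ρ c ≤ 1 := by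
  by_cases h0 : fix ρ {c} = ⊥
  · rw [fx, fxS, h0, finrank_bot]; exact Nat.zero_le _
  obtain ⟨v₁, h1, h1'⟩ := Submodule.exists_mem_ne_zero_of_ne_bot h0
  have h2 : LinearMap.range (ρ c - 1) ≠ ⊤ := fun e => h0 (by
    rw [fix_eq_ker, LinearMap.ker_eq_bot, LinearMap.injective_iff_surjective, ← LinearMap.range_eq_top, e])
  obtain ⟨l, hl, hl'⟩ := Submodule.exists_le_ker_of_lt_top _ (lt_top_iff_ne_top.2 h2)
  have h3 : ∀ s ∈ Subgroup.zpowers c, ∀ v, l (ρ s v) = l v := fun s hs => by
    rw [Subgroup.zpowers_eq_closure] at hs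
    induction hs using Subgroup.closure_induction with
    | mem x hx =>
      intro v
      have := hl' ⟨v, rfl⟩
      rwa [LinearMap.mem_ker, LinearMap.sub_apply, map_sub, sub_eq_zero, ← hx] at this
    | one => simp
    | mul x y _ _ hx hy => intro v; rw [map_mul, Module.End.mul_apply, hx, hy]
    | inv x _ hx =>
      intro v
      rw [← hx, ← Module.End.mul_apply, ← map_mul, mul_inv_cancel, map_one, Module.End.one_apply]
  have h4 : ∀ v ∈ fix ρ {c}, ∀ g, l (ρ g⁻¹ v) = l (ρ g v) := fun v hv g => by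
    obtain ⟨s, hs, t, ht, e⟩ := hc g
    rw [← fix_closure, ← Subgroup.zpowers_eq_closure] at hv
    rw [e, map_mul, map_mul, Module.End.mul_apply, Module.End.mul_apply, h3 s hs, hv t ht]
  have h5 : ∀ (m : V →ₗ[k] k) (w : V), w ≠ 0 → (∀ g, m (ρ g w) = 0) → m = 0 := fun m w hw h => by
    ext u
    obtain ⟨f, hf⟩ := Module.Projective.exists_dual_eq_one k hw
    obtain ⟨b, hb⟩ := hs (f.smulRight u)
    have := LinearMap.congr_fun hb w
    rw [LinearMap.smulRight_apply, hf, one_smul] at this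
    rw [this]
    simp [h]
  have h6 : ∀ v ∈ fix ρ {c}, ∀ X : Module.End k V, X v₁ = 0 → X v = 0 := fun v hv X hX => by
    obtain ⟨b, rfl⟩ := hs X
    let m : V →ₗ[k] k := ∑ h, b h • l ∘ₗ ρ h⁻¹
    have key : ∀ v ∈ fix ρ {c}, ∀ g, l (ρ g ((∑ h, b h • ρ h) v)) = m (ρ g⁻¹ v) := fun v hv g => by
      simp only [m, LinearMap.sum_apply, LinearMap.smul_apply, map_sum, map_smul, LinearMap.comp_apply]
      refine Finset.sum_congr rfl fun h _ => ?_
      rw [← Module.End.mul_apply, ← map_mul, ← h4 v hv, _root_.mul_inv_rev, map_mul, Module.End.mul_apply]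
    have hm := h5 m v₁ h1' fun g => by rw [← inv_inv g, ← key v₁ h1, hX]; simp
    by_contra hne
    exact hl (h5 l _ hne fun g => by rw [key v hv, hm]; rfl)
  refine (Submodule.finrank_mono (fun v hv => ?_ : fix ρ {c} ≤ Submodule.span k {v₁})).trans
    (finrank_span_singleton h1').le
  by_contra hn
  obtain ⟨f, hf, hf'⟩ := Submodule.exists_le_ker_of_notMem hn
  have := h6 v hv (f.smulRight v) (by
    rw [LinearMap.smulRight_apply, hf' (Submodule.mem_span_singleton_self v₁), zero_smul])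
  rw [LinearMap.smulRight_apply, smul_eq_zero] at this
  rcases this with h | h
  · exact hf h
  · exact hn (h ▸ zero_mem _)

variable (W : Wedd k k[G])

/-- the simple modules as representations -/
noncomputable def srep (a : Fin W.n) : Representation k G (Fin (W.d a) → k) := (sm W a).toMonoidHom.comp (of k G)

theorem srep_alg (a : Fin W.n) : (srep W a).asAlgebraHom = sm W a :=
  MonoidAlgebra.algHom_ext (fun g => by rw [Representation.asAlgebraHom_single_one]; rfl) (Subsingleton.elim _ _)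

theorem srep_span [Fintype G] (a : Fin W.n) (X : Module.End k (Fin (W.d a) → k)) :
    ∃ b : G → k, X = ∑ h, b h • srep W a h := by
  obtain ⟨c, rfl⟩ := sm_surj W a X
  refine ⟨c.coeff, ?_⟩
  conv_lhs => rw [eq_sum_single c, ← srep_alg, map_sum]
  simp

theorem Fam.eq_sum [Finite G] {ι : Type*} [Fintype ι] {f : ι → G} {S : Set G} (h : Fam f S)
    (hc : (Fintype.card ι : k) ≠ 0) (ρ : Representation k G V) :
    fxS ρ S = ∑ a, fxS (srep W a) S * E83.rk ρ.asAlgebraHom (jj W a) := by
  rw [← h.rk hc, rk_eq_sum W _ (h.idem hc)]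
  exact Finset.sum_congr rfl fun a _ => by rw [← h.rk hc, srep_alg]

end lin

variable {F : Type*} [Field F]

theorem mem_of_uu_ll (P : Subgroup SL(2, F)) (hu : ∀ b, uu b ∈ P) (hl : ∀ c, ll c ∈ P) (g : SL(2, F)) : g ∈ P := by
  have key : ∀ g : SL(2, F), g 1 0 ≠ 0 → g ∈ P := fun g h => by
    have hd := det_eq g
    have : g = uu ((g 0 0 - 1) / g 1 0) * ll (g 1 0) * uu ((g 1 1 - 1) / g 1 0) := by
      refine ext2 ?_ ?_ ?_ ?_ <;> simp only [mul_ap, uu_00, uu_01, uu_10, uu_11, ll_00, ll_01, ll_10, ll_11] <;>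
        field_simp
      · ring
      · linear_combination -hd
      · ring
      · ring
    rw [this]
    exact mul_mem (mul_mem (hu _) (hl _)) (hu _)
  by_cases h : g 1 0 = 0
  · have h1 : g 1 1 ≠ 0 := fun e => by simpa [h, e] using det_eq g
    have := mul_mem (key (g * ll 1) (by simpa [mul_ap, h] using h1)) (inv_mem (hl 1))
    rwa [mul_inv_cancel_right] at this
  · exact key g h

theorem ll_eq (c : F) : ll c = ww * uu (-c) * ww⁻¹ := by
  refine ext2 ?_ ?_ ?_ ?_ <;> simp [mul_ap, inv_00, inv_01, inv_10, inv_11]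

theorem gelfand [Fintype F] (h2 : (2 : F) = 0) {c : SL(2, F)} (hc : NoEig c) (g : SL(2, F)) :
    ∃ s ∈ SL2.Tor c, ∃ t ∈ SL2.Tor c, g⁻¹ = s * g * t := by
  set B := g * c * g⁻¹ with hB
  have hA : (c : Matrix (Fin 2) (Fin 2) F) * c = tr c • (c : Matrix (Fin 2) (Fin 2) F) - 1 := by
    ext i j; exact mul_self_ap c i j
  have hB' : (B : Matrix (Fin 2) (Fin 2) F) * B = tr c • (B : Matrix (Fin 2) (Fin 2) F) - 1 := by
    ext i j; rw [← tr_conj c g]; exact mul_self_ap B i j
  set h : Matrix (Fin 2) (Fin 2) F := c + B - tr c • 1 with hh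
  have e1 : h * c = B * h := by
    rw [hh, sub_mul, add_mul, mul_sub, mul_add, hA, hB', smul_mul_assoc, mul_smul_comm, one_mul, mul_one]; abel
  have e2 : h * B = c * h := by
    rw [hh, sub_mul, add_mul, mul_sub, mul_add, hA, hB', smul_mul_assoc, mul_smul_comm, one_mul, mul_one]; abel
  by_cases hd : h.det = 0
  · obtain ⟨v, hv, hv'⟩ := Matrix.exists_mulVec_eq_zero_iff.2 hd
    have h3 : h.mulVec ((c : Matrix (Fin 2) (Fin 2) F).mulVec v) = 0 := by
      rw [Matrix.mulVec_mulVec, e1, ← Matrix.mulVec_mulVec, hv', Matrix.mulVec_zero]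
    generalize hw : (c : Matrix (Fin 2) (Fin 2) F).mulVec v = w at h3
    have h4 : v 0 * w 1 - v 1 * w 0 ≠ 0 := fun e => by
      by_cases h0 : v 0 = 0
      · have h1 : v 1 ≠ 0 := fun h1 => hv (by ext i; fin_cases i <;> simpa)
        refine hc (w 1 / v 1) v hv (hw.trans ?_)
        ext i
        fin_cases i
        · simpa [h0, h1] using e
        · simp [h1]
      · refine hc (w 0 / v 0) v hv (hw.trans ?_)
        ext i
        fin_cases i
        · simp [h0]
        · simp; field_simp; linear_combination e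
    have h5 : h = 0 := by
      ext i j
      have a := congrFun hv' i
      have b := congrFun h3 i
      simp only [Matrix.mulVec, dotProduct, Fin.sum_univ_two, Pi.zero_apply] at a b
      refine mul_left_cancel₀ h4 ?_
      fin_cases j
      · change _ * h i 0 = _ * 0
        linear_combination w 1 * a - v 1 * b
      · change _ * h i 1 = _ * 0
        linear_combination v 0 * b - w 0 * a
    have h6 : B = c⁻¹ := eq_inv_of_mul_eq_one_right (Subtype.ext (by
      have : (B : Matrix (Fin 2) (Fin 2) F) = tr c • 1 - c := by rw [← sub_eq_zero, ← h5, hh]; abel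
      change (c : Matrix (Fin 2) (Fin 2) F) * B = 1
      rw [this, mul_sub, hA, mul_smul_comm, mul_one]; abel))
    refine ⟨1, one_mem _, 1, one_mem _, ?_⟩
    rw [one_mul, mul_one, inv_eq_iff_mul_eq_one, (sq_eq_neg_one_of_inverts hc.tr_sq_ne h6).2, neg_eq_self_of_two h2]
  · obtain ⟨s, hs⟩ := FiniteField.isSquare_of_char_two (F := F)
      (CharP.ringChar_of_prime_eq_zero Nat.prime_two (by exact_mod_cast h2)) h.det
    have h0 : s ≠ 0 := fun e => hd (by rw [hs, e, mul_zero])
    let n : SL(2, F) := ⟨s⁻¹ • h, by rw [Matrix.det_smul, hs]; simp; field_simp⟩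
    have e3 : n * c = B * n := Subtype.ext (by
      change s⁻¹ • h * c = B * s⁻¹ • h
      rw [smul_mul_assoc, mul_smul_comm, e1])
    have e4 : n * B = c * n := Subtype.ext (by
      change s⁻¹ • h * B = c * s⁻¹ • h
      rw [smul_mul_assoc, mul_smul_comm, e2])
    refine ⟨(n * g)⁻¹, inv_mem (Subgroup.mem_centralizer_singleton_iff.2 ?_), g⁻¹ * n,
      Subgroup.mem_centralizer_singleton_iff.2 ?_, by group⟩
    · rw [← mul_assoc, ← e4, hB]; group
    · rw [mul_assoc, e3, hB]; group

/-- the unipotent subgroup -/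
def uuHom (F : Type*) [Field F] : Multiplicative F →* SL(2, F) :=
  MonoidHom.mk' (fun b => uu b.toAdd) fun _ _ => uu_add _ _

variable [Fintype F] [DecidableEq F] {M : Ideal AlgInt} {hM : IsPModular 3 M}

theorem ineq_simple (hF : Fintype.card F = 32) {V : Type*} [AddCommGroup V] [Module (K hM) V]
    [FiniteDimensional (K hM) V] (ρ : Representation (K hM) SL(2, F) V)
    (hs : ∀ X : Module.End (K hM) V, ∃ b : SL(2, F) → K hM, X = ∑ h, b h • ρ h) {c : SL(2, F)} (hc : NoEig c)
    (hc' : SL2.Tor c = Subgroup.zpowers c) :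
    fx ρ (c ^ 3) + 2 * fxS ρ (Set.range (Bor F).subtype) ≤ 3 * fxS ρ (Set.range (dgHom (F := F))) := by
  have := Fintype.ofFinite (Bor F)
  have h2 := two_eq_zero_of_even (F := F) (by rw [hF]; decide)
  obtain ⟨β, hβ⟩ := exists_brauer ρ
  have h1 := hβ.sum_hom (uuHom F) (by rw [Fintype.card_multiplicative, hF]; decide)
  have h3 := hβ.sum_hom (dgHom (F := F)) (by rw [Fintype.card_units, hF]; decide)
  have h4 := hβ.sum_hom (Bor F).subtype (by rw [← Nat.card_eq_fintype_card, card_Bor, hF]; decide)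
  rw [Fintype.card_multiplicative, hF] at h1
  rw [Fintype.card_units, hF, ← Finset.add_sum_erase _ _ (Finset.mem_univ 1), map_one, hβ.one] at h3
  rw [← Nat.card_eq_fintype_card, card_Bor, hF, ← Fintype.sum_equiv borEquiv (fun p => β (dg p.1 * uu p.2)) _
    (fun p => by rw [← borEquiv_apply]; rfl), Fintype.sum_prod_type, ← Finset.add_sum_erase _ _ (Finset.mem_univ 1),
    Finset.sum_congr (s₁ := Finset.univ.erase 1) rfl (g := fun a => 32 * β (dgHom a)) (fun a ha => by
      have : (a : F) ^ 2 ≠ 1 := fun e => (Finset.mem_erase.1 ha).1 (Units.ext (by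
        have : ((a : F) - 1) ^ 2 = 0 := by linear_combination e + (1 - a) * h2
        simpa [sub_eq_zero] using this))
      simp only [← classFun_eq_of_isConj hβ.isClass (isConj_dg_mul_uu this _), Finset.sum_const, Finset.card_univ,
        hF, nsmul_eq_mul, dgHom_apply, Nat.cast_ofNat]), ← Finset.mul_sum] at h4
  simp only [dg_one, one_mul] at h4
  have h5 : ∑ b : F, β (uu b) = ∑ q, β (uuHom F q) := Fintype.sum_equiv Multiplicative.ofAdd _ _ fun _ => rfl
  have h6 : (31 * fxS ρ (Set.range (Bor F).subtype) + finrank (K hM) V : ℂ) =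
      fxS ρ (Set.range (uuHom F)) + 31 * fxS ρ (Set.range (dgHom (F := F))) := by
    push_cast at h1 h3 h4
    linear_combination (h5 + h1 - h4) / 32 + h3
  norm_cast at h6
  rcases (Submodule.finrank_le (fix ρ (Set.range (uuHom F)))).eq_or_lt with h7 | h7
  · have h8 : ∀ g, ρ g = 1 := fun g => by
      have h9 : ∀ b, uu b ∈ ρ.toHomUnits.ker := fun b => Units.ext (LinearMap.ext fun v =>
        (Submodule.eq_top_of_finrank_eq h7).ge (Submodule.mem_top (x := v)) _ ⟨Multiplicative.ofAdd b, rfl⟩)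
      exact congrArg Units.val (mem_of_uu_ll ρ.toHomUnits.ker h9
        (fun c => ll_eq c ▸ (MonoidHom.normal_ker _).conj_mem _ (h9 _) _) g)
    have h9 : ∀ S, fxS ρ S = finrank (K hM) V := fun S => by
      rw [fxS, show fix ρ S = ⊤ from eq_top_iff.2 fun v _ g _ => by rw [h8]; rfl, finrank_top]
    rw [fx, h9, h9, h9]; omega
  · have h8 := fx_cube_le ρ c
    have h9 := fx_le_one ρ hs (c := c) fun g => hc' ▸ gelfand h2 hc g
    change fxS _ _ < _ at h7
    omega

theorem no32 {ψ : SL(2, F) →* E} (hψ : ∀ g, ψ g = 1 ↔ IsScal g) (hF : Fintype.card F = 32) : False := by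
  obtain ⟨M, hM⟩ := exists_isPModular' Nat.prime_three
  have := Fintype.ofFinite (Bor F)
  have h2 := two_eq_zero_of_even (F := F) (by rw [hF]; decide)
  have hp : ∀ (g : SL(2, F)) k, ψ g ^ k = 1 ↔ orderOf g ∣ k := fun g k => by
    rw [← map_pow, hψ, isScal_iff, neg_eq_self_of_two h2, or_self, orderOf_dvd_iff_pow_eq_one]
  obtain ⟨d, hd⟩ := exists_noEig (F := F)
  obtain ⟨a, ha⟩ := IsCyclic.exists_generator (α := Fˣ)
  have := hd.isCyclic_centralizer
  obtain ⟨c, hc⟩ := IsCyclic.exists_generator (α := SL2.Tor d)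
  have h3 : orderOf (c : SL(2, F)) = 33 := by
    rw [Subgroup.orderOf_coe, orderOf_eq_card_of_forall_mem_zpowers hc, hd.card_centralizer, hF]
  have h4 : orderOf (dg a) = 31 := by
    rw [← dgHom_apply, orderOf_injective dgHom dg_injective, orderOf_eq_card_of_forall_mem_zpowers ha, card_units_eq,
      hF]
  have h5 : ¬ IsScal (c : SL(2, F)) := fun e => by
    have := (hp c 1).1 (by rw [pow_one, hψ]; exact e)
    rw [h3] at this
    exact absurd this (by decide)
  have h6 : SL2.Tor (c : SL(2, F)) = Subgroup.zpowers (c : SL(2, F)) := by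
    rw [hd.centralizer_tor c h5, ← Subgroup.subtype_apply, ← MonoidHom.map_zpowers, (Subgroup.eq_top_iff' _).2 hc,
      ← MonoidHom.range_eq_map, Subgroup.range_subtype]
  obtain ⟨W⟩ := nonempty_wedd (K hM) (K hM)[SL(2, F)]
  set ρ : Representation (K hM) SL(2, F) _ := (ρE hM).comp ψ with hρ
  have h7 := (fam_pow (g := (c : SL(2, F)) ^ 3) (m := 11) (by rw [← pow_mul, ← orderOf_dvd_iff_pow_eq_one, h3])).eq_sum W
    (cast_ne_zero_K (by decide)) ρ
  have h8 := (fam_hom (Bor F).subtype).eq_sum W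
    (cast_ne_zero_K (by rw [← Nat.card_eq_fintype_card, card_Bor, hF]; decide)) ρ
  have h9 := (fam_hom (dgHom (F := F))).eq_sum W (cast_ne_zero_K (by rw [Fintype.card_units, hF]; decide)) ρ
  have h10 : fx ρ (c ^ 3) + 2 * fxS ρ (Set.range (Bor F).subtype) ≤ 3 * fxS ρ (Set.range (dgHom (F := F))) := by
    rw [fx, h7, h8, h9, Finset.mul_sum, Finset.mul_sum, ← Finset.sum_add_distrib]
    refine Finset.sum_le_sum fun i _ => ?_
    rw [← mul_assoc, ← mul_assoc, ← add_mul]
    exact Nat.mul_le_mul_right _ (ineq_simple hF _ (srep_span W i) (hd.tor c h5) h6)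
  rw [fxS_eq_fx ρ (S := Set.range dgHom) (g := dg a) (by
    rw [← dgHom_apply, ← MonoidHom.map_zpowers, (Subgroup.eq_top_iff' _).2 ha, ← MonoidHom.range_eq_map]; rfl),
    hρ, fx_comp, fx_comp, map_pow] at h10
  obtain ⟨y, h11, -⟩ := exists_tor hM (ψ c ^ 3) (N := 11) (by decide) (by rw [← pow_mul, hp, h3])
  obtain ⟨y', h12, -⟩ := exists_tor hM (ψ (dg a)) (N := 31) (by decide) (by rw [hp, h4])
  have h13 := h11.d11
  have h14 := h12.d31
  have h15 := fx_ne hM (g := ψ c ^ 3) (by rw [Ne, hp, h3]; decide)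
  have h16 := fx_ne hM (g := ψ (dg a) ^ 1) (by rw [Ne, hp, h4]; decide)
  simp only [pow_one] at *
  omega

end CfsgLib.E83
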