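import Mathlib
import Cfsg.Agent.Lib.E83.Sp6D

/-!
# The group `PSp₆(3)` does not embed in `E₈(3)`
-/

set_option autoImplicit false

namespace CfsgLib.E83.Sp6

attribute [local implicit_reducible] CfsgLib.Block.K

open Cfsg CfsgLib.Block Module Matrix

/-- the numbering of the basis -/
abbrev e6 : Fin 3 ⊕ Fin 3 ≃ Fin 6 := finSumFinEquiv

theorem h0 : (0 : ZMod 3) * 0 = (0 : ℕ) := by simp

theorem D_jc : D (0 : ZMod 3) e6 jc = J (Fin 3) (ZMod 3) := by
  decide +kernel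

theorem rep {a : ℕ} (h : symp a = true) :
    ∃ x : symplecticGroup (Fin 3) (ZMod 3), (symplecticGroup (Fin 3) (ZMod 3)).subtype x = D 0 e6 a := by
  refine ⟨⟨D 0 e6 a, SymplecticGroup.mem_iff.2 ?_⟩, rfl⟩
  have := congrArg (D (0 : ZMod 3) e6) (Nat.eq_of_beq_eq_true h)
  rw [D_mulc e6 h0 (by decide) le_rfl, D_mulc e6 h0 (by decide) le_rfl, D_jc] at this
  rw [← this]
  congr 1
  · rw [this]
  · ext i j
    exact (D_tc (ι := (0 : ZMod 3)) e6 (f := id) (fun _ h => h) a i j).symm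

theorem no_psp {ψ : PSp 3 (ZMod 3) →* E} (hψ : Function.Injective ψ) : False := by
  obtain ⟨M, hM⟩ := exists_isPModular' Nat.prime_three
  have := Fintype.ofFinite (PSp 3 (ZMod 3))
  obtain ⟨C, hC⟩ := exists_ctx' (ι := (0 : ZMod 3)) e6 h0 (by decide) le_rfl (symplecticGroup (Fin 3) (ZMod 3)).subtype
    Subtype.val_injective
  have hg : ∀ a, symp a = true → C.Good a := fun a h => by
    obtain ⟨x, hx⟩ := rep h
    exact (hC a x hx).1
  have h1 := c1
  simp only [Bool.and_eq_true, List.all_eq_true] at h1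
  have h2 := C.cnt_rr ((ρE hM).comp ψ) (fun q => (C.getD (P := fun _ => True) trivial
    (fun a h => ⟨hg a (h1.2 a h), trivial⟩) q).1) (fun s h => hg _ (h1.1.1 s h)) (fun a h => hg a (h1.1.2 a h)) c2 c3
    (by rw [c6]; decide) c4 c5
  have hr : ∀ i, C.Good (reps.getD i (scc 6 1)) := fun i =>
    (C.getD (P := fun _ => True) trivial (fun a h => ⟨hg a (h1.1.2 a h), trivial⟩) i).1
  have e0 : C.cl (reps.getD 0 (scc 6 1)) = 1 := by
    rw [show reps.getD 0 (scc 6 1) = scc 6 1 by decide +kernel, C.cl_one]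
  have e2 : C.cl (reps.getD 2 (scc 6 1)) = C.cl (reps.getD 1 (scc 6 1)) ^ 2 := by
    rw [← (C.pw (hr 1) 2).2]; exact congrArg _ (by decide +kernel)
  have e3 : C.cl (reps.getD 3 (scc 6 1)) = C.cl (reps.getD 1 (scc 6 1)) ^ 4 := by
    rw [← (C.pw (hr 1) 4).2]; exact congrArg _ (by decide +kernel)
  have e4 : C.cl (reps.getD 4 (scc 6 1)) ^ 2 = 1 := by
    rw [← (C.pw (hr 4) 2).2, ← C.cl_one]
    exact C.cl_sc (u := 2) (C.pw (hr 4) 2).1 C.good_one (by decide) (by decide +kernel)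
  have e5 := C.exp (hr 1) (by decide +kernel)
  have e6' : C.cl (reps.getD 3 (scc 6 1)) ≠ 1 := by
    obtain ⟨x, hx⟩ := rep (a := reps.getD 3 (scc 6 1)) (by decide +kernel)
    obtain ⟨y, hy⟩ := rep (a := W.getD 0 0) (by decide +kernel)
    rw [(hC _ x hx).2]
    exact mk_ne_one e6 h0 (by decide) le_rfl _ hx hy (.inl 2) (.inl 1) (by decide +kernel) (by decide +kernel)
  have l1 := L8_comp ψ hM e5
  have l2 := L8_comp ψ hM (g := C.cl (reps.getD 4 (scc 6 1))) (by rw [show 8 = 2 * 4 from rfl, pow_mul, e4, one_pow])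
  have l3 := fx_comp_ne ψ hM hψ e6'
  simp only [List.length_cons, List.length_nil, Finset.sum_range_succ, Finset.sum_range_zero, e0, e2, e3, c6, rr,
    ← pow_mul, Nat.reduceMul, e4, e5, one_pow, fx_comp_one] at h2 l2 l3
  generalize fx ((ρE hM).comp ψ) (C.cl (reps.getD 1 (scc 6 1))) = a at *
  generalize fx ((ρE hM).comp ψ) (C.cl (reps.getD 1 (scc 6 1)) ^ 2) = b at *
  generalize fx ((ρE hM).comp ψ) (C.cl (reps.getD 1 (scc 6 1)) ^ 4) = c at *
  generalize fx ((ρE hM).comp ψ) (C.cl (reps.getD 4 (scc 6 1))) = d at *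
  have l4 : d % 8 = 0 := (by decide : ∀ l ∈ L8, l.getD 1 0 = 248 → l.getD 0 0 % 8 = 0) _ l2 rfl
  have l5 : (96 * a + 40 * b + 106 * c) % 128 ≠ 112 := (by decide : ∀ l ∈ L8, l.getD 2 0 ≠ 248 →
    (96 * l.getD 0 0 + 40 * l.getD 1 0 + 106 * l.getD 2 0) % 128 ≠ 112) _ l1 l3
  simp only [List.getD_cons_succ, List.getD_cons_zero, nsmul_eq_mul] at h2
  omega

end CfsgLib.E83.Sp6
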