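import Mathlib
import Cfsg.Agent.Lib.E83.U4D
import Cfsg.Agent.Lib.E83.L32

/-!
# The non-split four-dimensional unitary representation of `SL₂(9)`
-/

set_option autoImplicit false
set_option linter.unusedSectionVars false

namespace CfsgLib.E83

attribute [local implicit_reducible] CfsgLib.Block.K

open Cfsg CfsgLib.Block CfsgLib.SL2 Module Matrix MatrixGroups

section gen

theorem exists_lift {G X N : Type*} [Group G] [Group X] [Monoid N] (val : X →* N) (hval : Function.Injective val)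
    (θ : G →* N) (h : ∀ g, ∃ x, val x = θ g) : ∃ φ : G →* X, ∀ g, val (φ g) = θ g := by
  choose φ hφ using h
  exact ⟨MonoidHom.mk' φ fun g g' => hval (by rw [map_mul, hφ, hφ, hφ, map_mul]), hφ⟩

/-- the elements whose images have a lift -/
def liftable {G X N : Type*} [Group G] [Group X] [Monoid N] (val : X →* N) (θ : G →* N) : Subgroup G where
  carrier := {g | ∃ x, val x = θ g}
  one_mem' := ⟨1, by simp⟩
  mul_mem' := by
    rintro _ _ ⟨x, hx⟩ ⟨y, hy⟩
    exact ⟨x * y, by rw [map_mul, map_mul, hx, hy]⟩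
  inv_mem' := by
    rintro g ⟨x, hx⟩
    exact ⟨x⁻¹, left_inv_eq_right_inv (a := θ g) (by rw [← hx, ← map_mul, inv_mul_cancel, map_one])
      (by rw [← map_mul, mul_inv_cancel, map_one])⟩

theorem mem_normalizer_closure {G : Type*} [Group G] [Finite G] {S : Set G} {g : G}
    (h : ∀ s ∈ S, g * s * g⁻¹ ∈ Subgroup.closure S) : g ∈ Subgroup.normalizer (Subgroup.closure S : Set G) :=
  Subgroup.mem_normalizer_fintype fun _ hn =>
    (Subgroup.closure_le ((Subgroup.closure S).comap (MulAut.conj g).toMonoidHom)).2 h hn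

variable {k G H V : Type*} [Field k] [Group G] [Group H] [AddCommGroup V] [Module k V]

theorem exists_sub (ρ : Representation k G V) {S : Set G} (φ : H →* G)
    (h : ∀ g, φ g ∈ Subgroup.normalizer (Subgroup.closure S : Set G)) :
    ∃ σ : Representation k H (fix ρ S), ∀ g, fx σ g = fxS ρ (insert (φ g) S) := by
  have h1 : ∀ g, fix ρ S ≤ (fix ρ S).comap ((ρ.comp φ) g) := fun g v hv s hs => by
    rw [← fix_closure] at hv
    have := hv _ ((Subgroup.mem_set_normalizer_iff''.1 (h g) s).1 (Subgroup.subset_closure hs))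
    rw [MonoidHom.comp_apply, ← Module.End.mul_apply, ← map_mul, ← mul_inv_cancel_left (φ g) (s * φ g), map_mul,
      Module.End.mul_apply, ← mul_assoc, this]
  refine ⟨Representation.subrepresentation (ρ.comp φ) _ h1, fun g => ?_⟩
  rw [fx, fxS, fxS, ← Submodule.finrank_map_subtype_eq]
  refine congrArg (fun W : Submodule k V => finrank k W) ?_
  ext v
  simp only [Submodule.mem_map, Submodule.subtype_apply, mem_fix, Set.forall_mem_insert, Set.mem_singleton_iff,
    forall_eq]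
  exact ⟨by rintro ⟨w, hw, rfl⟩; exact ⟨congrArg Subtype.val hw, w.2⟩, fun h => ⟨⟨v, h.2⟩, Subtype.ext h.1, rfl⟩⟩

variable {F : Type*} [Field F] [Fintype F] [DecidableEq F]

theorem fx_eq_of_orderOf' (ρ : Representation k SL(2, F) V) {g h : SL(2, F)}
    (e : orderOf g = orderOf h) (h2 : ¬ orderOf g ∣ 2) (hp : (orderOf g).Coprime (ringChar F))
    (hq : ¬ orderOf g ∣ Fintype.card F - 1) : fx ρ g = fx ρ h := by
  have h1 := noEig_of_orderOf h2 hp hq
  obtain ⟨c, hc⟩ := h1.exists_conj_mem (noEig_of_orderOf (e ▸ h2) (e ▸ hp) (e ▸ hq))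
  have := h1.isCyclic_centralizer
  have h3 : g ∈ SL2.Tor g := Subgroup.mem_centralizer_singleton_iff.2 rfl
  rw [← fx_conj ρ h c]
  refine fx_eq_of_zpowers ρ ?_
  have := congrArg (Subgroup.map (SL2.Tor g).subtype) (zpowers_eq_of_orderOf (a := ⟨g, h3⟩) (b := ⟨_, hc⟩) (by
    rw [Subgroup.orderOf_mk, Subgroup.orderOf_mk, e, orderOf_eq_of_isConj (isConj_iff.2 ⟨c, rfl⟩)]))
  rwa [MonoidHom.map_zpowers, MonoidHom.map_zpowers] at this

end gen

namespace U4

theorem aniso : ∀ p : ZMod 3 × ZMod 3, p.1 * p.1 + p.2 * p.2 = 0 → p = 0 := by decide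

variable {F : Type*} [Field F] [Fintype F] [DecidableEq F] [CharP F 3] [Fact (Nat.Prime 3)] {ι : F}
  (hι : ι * ι = (2 : ℕ)) (hF : Fintype.card F = 9)

theorem three : (3 : F) = 0 := by exact_mod_cast CharP.cast_eq_zero F 3

theorem cj_lt (u : ℕ) : cj u < 16 := by unfold cj; omega

theorem lin_lt (a b c d : ℕ) : lin a b c d < 16 := red3_lt _

theorem mu_lt (a b : ℕ) : mu a b < 16 := red3_lt _

include hι in
theorem dec_cj (u : ℕ) : dec ι (cj u) = frobenius F 3 (dec ι u) := by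
  rw [dec, dec, map_add, map_mul, map_natCast, map_natCast, frobenius_def, show cj u % 4 = u % 4 by unfold cj; omega,
    show cj u / 4 = 2 * (u / 4) % 3 by unfold cj; omega, ← CharP.cast_eq_mod F 3, pow_three', hι]
  push_cast; ring

include hι in
theorem dec_lin {a b c d : ℕ} (ha : a < 16) (hb : b < 16) (hc : c < 16) (hd : d < 16) :
    dec ι (lin a b c d) = dec ι a * dec ι b + dec ι c * dec ι d := by
  simpa [Fin.sum_univ_two, lin] using dec_red (u := ![a, c]) (v := ![b, d]) hι le_rfl (by simp)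
    (by simp [Fin.forall_fin_two, *]) (by simp [Fin.forall_fin_two, *])

include hι in
theorem dec_mu {a b : ℕ} (ha : a < 16) (hb : b < 16) : dec ι (mu a b) = dec ι a * dec ι b := by
  rw [mu, dec_lin hι ha hb (by decide) (by decide)]; simp [dec]

/-- the matrix of a unitary element -/
abbrev val : SU 4 F 3 →* Matrix (Fin 4) (Fin 4) F := (slToMat 4 F).comp (SU 4 F 3).subtype

theorem val_inj : Function.Injective (val (F := F)) := fun _ _ h => Subtype.ext (Subtype.ext h)

include hι in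
theorem rep {q : ℕ} (h : uni q = true) : ∃ x, val x = D ι (Equiv.refl _) (pw4 q) := by
  have h1 := congrArg (D ι (Equiv.refl (Fin 4))) (Nat.eq_of_beq_eq_true h)
  have hm := D_mulc (Equiv.refl (Fin 4)) hι le_rfl (by decide)
  rw [hm, D_one, show D ι (Equiv.refl _) (tc 4 cj q) = ((D ι (Equiv.refl (Fin 4)) q).map (frobenius F 3))ᵀ from by
    ext i j; rw [D_tc _ fun u _ => cj_lt u, dec_cj hι]; rfl] at h1
  rw [pw4, force_eq, hm, hm]
  generalize D ι (Equiv.refl (Fin 4)) q = A at *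
  have h2 : ∀ u v, hermForm 4 F 3 (A *ᵥ u) (A *ᵥ v) = hermForm 4 F 3 u v := fun u v => by
    have : ∀ u v, hermForm 4 F 3 u v = (frobenius F 3 ∘ v) ⬝ᵥ u := fun u v => dotProduct_comm u _
    rw [this, this, show frobenius F 3 ∘ (A *ᵥ v) = A.map (frobenius F 3) *ᵥ (frobenius F 3 ∘ v) from
      funext fun i => RingHom.map_mulVec _ _ _ i, ← vecMul_transpose, ← dotProduct_mulVec, mulVec_mulVec, h1, one_mulVec]
  refine ⟨⟨⟨A * A * (A * A), ?_⟩, fun u v => ?_⟩, rfl⟩
  · have := congrArg det h1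
    rw [det_mul, det_transpose, ← RingHom.mapMatrix_apply, ← RingHom.map_det, frobenius_def, det_one] at this
    simp only [det_mul]
    linear_combination this
  · change hermForm 4 F 3 ((A * A * (A * A)) *ᵥ u) ((A * A * (A * A)) *ᵥ v) = _
    simp only [← mulVec_mulVec, h2]

/-- the representation -/
def T (g : SL(2, F)) : Matrix (Fin 4) (Fin 4) F :=
  !![frobenius F 3 (g 0 0), frobenius F 3 (g 0 1), g 0 0 * g 0 0 * g 0 1 + frobenius F 3 (g 0 0 * g 0 0 * g 1 0),
      g 0 1 * g 0 1 * g 0 0 * 2 + frobenius F 3 (g 0 1 * g 0 1 * g 1 1);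
    frobenius F 3 (g 1 0), frobenius F 3 (g 1 1), g 1 0 * g 1 0 * g 1 1 + frobenius F 3 (g 1 0 * g 1 0 * g 0 0) * 2,
      g 1 1 * g 1 1 * g 1 0 * 2 + frobenius F 3 (g 1 1 * g 1 1 * g 0 1) * 2;
    0, 0, g 0 0, g 0 1; 0, 0, g 1 0, g 1 1]

include hF in
theorem T_mul (g h : SL(2, F)) : T (g * h) = T g * T h := by
  have h1 := det_eq g
  have h2 := det_eq h
  have h4 : ∀ x : F, frobenius F 3 x ^ 3 = x := fun x => by
    rw [frobenius_def, ← pow_mul]; exact (congrArg (x ^ ·) hF).symm.trans (FiniteField.pow_card x)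
  have h6 : ∀ x : F, x ^ 3 = frobenius F 3 x := fun x => rfl
  have h5 := congrArg (frobenius F 3) h1
  simp only [map_sub, map_mul, map_one] at h5
  ext i j
  fin_cases i <;> fin_cases j <;>
    simp [T, Matrix.mul_apply, Fin.sum_univ_succ, mul_ap]
  all_goals
    have e1 := h6 (g 0 0); have e2 := h6 (g 0 1); have e3 := h6 (g 1 0); have e4 := h6 (g 1 1)
    have e5 := h4 (h 0 0); have e6 := h4 (h 0 1); have e7 := h4 (h 1 0); have e8 := h4 (h 1 1)
    generalize frobenius F 3 (g 0 0) = A, frobenius F 3 (g 0 1) = B, frobenius F 3 (g 1 0) = C,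
      frobenius F 3 (g 1 1) = D, frobenius F 3 (h 0 0) = P, frobenius F 3 (h 0 1) = Q, frobenius F 3 (h 1 0) = R,
      frobenius F 3 (h 1 1) = S at *
    generalize g 0 0 = a, g 0 1 = b, g 1 0 = c, g 1 1 = d, h 0 0 = p, h 0 1 = q, h 1 0 = r, h 1 1 = s at *
  · linear_combination (norm := (ring_nf; reduce_mod_char!)) p * p * q * e1 + r * r * s * e2 +
      (a * a * b * p - a * b * b * r) * h2 + A * A * C * e5 + B * B * D * e7 + (A * P * P * R - B * P * R * R) * h5
  · linear_combination (norm := (ring_nf; reduce_mod_char!)) - q * q * p * e1 - s * s * r * e2 +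
      (a * a * b * q - a * b * b * s) * h2 + A * A * C * e6 + B * B * D * e8 + (A * Q * Q * S - B * Q * S * S) * h5
  · linear_combination (norm := (ring_nf; reduce_mod_char!)) p * p * q * e3 + r * r * s * e4 +
      (c * c * d * p - c * d * d * r) * h2 - C * C * A * e5 - D * D * B * e7 + (C * P * P * R - D * P * R * R) * h5
  · linear_combination (norm := (ring_nf; reduce_mod_char!)) - q * q * p * e3 - s * s * r * e4 +
      (c * c * d * q - c * d * d * s) * h2 - C * C * A * e6 - D * D * B * e8 + (C * Q * Q * S - D * Q * S * S) * h5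

theorem T_one : T (1 : SL(2, F)) = 1 := by
  ext i j
  fin_cases i <;> fin_cases j <;> simp [T, one_00, one_01, one_10, one_11]

theorem dec0 : dec ι 0 = 0 := by simp [dec]

theorem dec1 : dec ι 1 = 1 := by simp [dec]

theorem dec2 : dec ι 2 = 2 := by simp [dec]

theorem dec4 : dec ι 4 = ι := by simp [dec]

/-- the determinant is one -/
abbrev dt (c : ℕ) : Prop := lin (nb4 c 0) (nb4 c 3) (mu (nb4 c 1) (nb4 c 2)) 2 = 1

/-- the element of `SL₂(9)` with a given code -/
def g2 {c : ℕ} (h : dt c) : SL(2, F) := mk2 (dec ι (nb4 c 0)) (dec ι (nb4 c 1)) (dec ι (nb4 c 2)) (dec ι (nb4 c 3)) (by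
  have := congrArg (dec ι) h
  rw [dec_lin hι (nb4_lt _ _) (nb4_lt _ _) (mu_lt _ _) (by decide), dec_mu hι (nb4_lt _ _) (nb4_lt _ _), dec1,
    dec2] at this
  linear_combination (norm := (ring_nf; reduce_mod_char!)) this)

theorem g2_pow {c : ℕ} (h : dt c) (k : ℕ) :
    (g2 hι h ^ k : SL(2, F)).1 = D ι (Equiv.refl _) (pwc 2 2 c k) := by
  rw [D_pwc _ hι le_rfl (by decide), Matrix.SpecialLinearGroup.coe_pow]
  congr 1
  ext i j
  fin_cases i <;> fin_cases j <;> rfl

theorem T_g2 {c : ℕ} (h : dt c) : T (g2 hι h) =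
    D ι (Equiv.refl _) (pk ((ents (nb4 c 0) (nb4 c 1) (nb4 c 2) (nb4 c 3)).getD · 0) (4 * 4)) := by
  ext i j
  rw [D_pk _ _ fun r => by
    rcases lt_or_ge r (ents (nb4 c 0) (nb4 c 1) (nb4 c 2) (nb4 c 3)).length with hr | hr
    · rw [List.getD_eq_getElem _ _ hr]
      refine (?_ : ∀ x ∈ ents (nb4 c 0) (nb4 c 1) (nb4 c 2) (nb4 c 3), x < 16) _ (List.getElem_mem hr)
      simp [ents, cj_lt, lin_lt, nb4_lt]
    · rw [List.getD_eq_default _ _ hr]; decide]
  fin_cases i <;> fin_cases j <;>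
    simp [T, g2, ents, dec_cj hι, dec_lin hι, dec_mu hι, cj_lt, mu_lt, nb4_lt, dec0, dec1, dec2]

include hF in
theorem gen4 (P : Subgroup SL(2, F)) (h : ∀ c ∈ [0x1011, 0x1041, 0x1101, 0x1401], ∀ hc : dt c, g2 hι hc ∈ P)
    (g : SL(2, F)) : g ∈ P := by
  have h1 : ∀ b : F, ∃ x y : ℕ, b = x + y * ι := fun b => by
    let φ := ZMod.castHom (dvd_refl 3) F
    let f : ZMod 3 × ZMod 3 →+ F := AddMonoidHom.mk' (fun p => φ p.1 + φ p.2 * ι) fun p q => by
      simp only [Prod.fst_add, Prod.snd_add, map_add]; ring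
    have hf : Function.Injective f := (injective_iff_map_eq_zero f).2 fun p hp => by
      have : p.1 * p.1 + p.2 * p.2 = 0 := φ.injective (by
        change φ p.1 + φ p.2 * ι = 0 at hp
        simp only [map_add, map_mul, map_zero]
        push_cast at hι
        linear_combination (norm := (ring_nf; reduce_mod_char!)) (φ p.1 - φ p.2 * ι) * hp + φ p.2 * φ p.2 * hι)
      exact aniso p this
    obtain ⟨p, rfl⟩ := ((Fintype.bijective_iff_injective_and_card f).2 ⟨hf, by simp [hF]⟩).2 b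
    exact ⟨p.1.val, p.2.val, by simp [f, φ]⟩
  simp only [List.forall_mem_cons] at h
  have u1 : uu 1 ∈ P := (ext2 dec1 dec1 dec0 dec1 : g2 hι (by decide : dt 0x1011) = uu 1) ▸ h.1 _
  have u2 : uu ι ∈ P := (ext2 dec1 dec4 dec0 dec1 : g2 hι (by decide : dt 0x1041) = uu ι) ▸ h.2.1 _
  have l1 : ll 1 ∈ P := (ext2 dec1 dec0 dec1 dec1 : g2 hι (by decide : dt 0x1101) = ll 1) ▸ h.2.2.1 _
  have l2 : ll ι ∈ P := (ext2 dec1 dec0 dec4 dec1 : g2 hι (by decide : dt 0x1401) = ll ι) ▸ h.2.2.2.1 _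
  have lp : ∀ (b : F) (n : ℕ), ll b ^ n = ll (n * b) := fun b n => by
    induction n with
    | zero => simp [ll_zero]
    | succ n ih => rw [pow_succ, ih, ← ll_add]; congr 1; push_cast; ring
  refine mem_of_uu_ll P (fun b => ?_) (fun b => ?_) g <;> obtain ⟨x, y, rfl⟩ := h1 b
  · rw [uu_add, ← mul_one (x : F), ← uu_pow, ← uu_pow]; exact mul_mem (pow_mem u1 _) (pow_mem u2 _)
  · rw [ll_add, ← mul_one (x : F), ← lp, ← lp]; exact mul_mem (pow_mem l1 _) (pow_mem l2 _)

include hι in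
theorem rep_gd {a : ℕ} (h : gd a = true) : ∃ x, val x = D ι (Equiv.refl _) a := by
  obtain ⟨q, h1, h2⟩ := List.any_eq_true.1 h
  rw [Nat.eq_of_beq_eq_true h2]
  exact rep hι (List.all_eq_true.1 (Bool.and_eq_true_iff.1 c1).1 q h1)

include hF in
theorem exists_theta : ∃ θ : SL(2, F) →* SU 4 F 3, ∀ c (h : dt c), val (θ (g2 hι h)) = D ι (Equiv.refl _) (th c) := by
  have hm := D_mulc (Equiv.refl (Fin 4)) hι le_rfl (by decide)
  have h1 : D ι (Equiv.refl (Fin 4)) pc * D ι (Equiv.refl _) qc = 1 := by rw [← hm, c3.2.2.2.2.2.1, D_one]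
  have h2 : D ι (Equiv.refl (Fin 4)) qc * D ι (Equiv.refl _) pc = 1 := by rw [← hm, c3.2.2.2.2.2.2.1, D_one]
  let θ : SL(2, F) →* Matrix (Fin 4) (Fin 4) F := ⟨⟨fun g => D ι (Equiv.refl _) pc * T g * D ι (Equiv.refl _) qc,
    by rw [T_one, mul_one, h1]⟩, fun g h => by
      simp only [T_mul hF, mul_assoc]; rw [← mul_assoc (D ι _ qc), h2, one_mul]⟩
  have h3 : ∀ c (h : dt c), θ (g2 hι h) = D ι (Equiv.refl _) (th c) := fun c h => by
    rw [th, hm, hm, ← T_g2 hι h]; rfl
  have h4 := gen4 hι hF (liftable (val (F := F)) θ) fun c hc h => by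
    obtain ⟨x, hx⟩ := rep_gd hι (List.all_eq_true.1 (Bool.and_eq_true_iff.1 c2).2 c hc)
    exact ⟨x, hx.trans (h3 c h).symm⟩
  obtain ⟨φ, hφ⟩ := exists_lift (val (F := F)) val_inj θ h4
  exact ⟨φ, fun c h => (hφ _).trans (h3 c h)⟩

theorem order_x : orderOf (g2 hι (by decide : dt 0x5120)) = 5 := by
  have : Fact (Nat.Prime 5) := ⟨by norm_num⟩
  refine orderOf_eq_prime (Subtype.ext ?_) fun h => ?_
  · rw [g2_pow, show pwc 2 2 0x5120 5 = scc 2 1 by decide +kernel, D_one]; rfl
  · exact zero_ne_one ((dec0 (ι := ι)).symm.trans (congrArg (· 0 0) h))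

theorem order_y : orderOf (g2 hι (by decide : dt 0x6005)) = 8 := by
  refine orderOf_eq_prime_pow (p := 2) (n := 2) (fun h => ?_) (Subtype.ext ?_)
  · have := congrFun₂ ((g2_pow hι _ _).symm.trans (congrArg Subtype.val h)) 0 0
    rw [show pwc 2 2 0x6005 (2 ^ 2) = scc 2 2 by decide +kernel, D_scc _ _ (by decide), dec2] at this
    exact one_ne_zero (α := F) (by simp at this; linear_combination this)
  · rw [g2_pow, show pwc 2 2 0x6005 (2 ^ (2 + 1)) = scc 2 1 by decide +kernel, D_one]; rfl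

end U4

end CfsgLib.E83
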