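import Mathlib
import Cfsg.Agent.Lib.E83.U4A
import Cfsg.Agent.Lib.E83.L2

/-!
# The group `U₄(3)` does not embed in `E₈(3)`
-/

set_option autoImplicit false
set_option linter.unusedSectionVars false

namespace CfsgLib.E83.U4

attribute [local implicit_reducible] CfsgLib.Block.K

open Cfsg CfsgLib.Block CfsgLib.SL2 Module Matrix MatrixGroups

variable {F : Type*} [Field F] [Fintype F] [DecidableEq F]

theorem no_psu (hF : Fintype.card F = 9) {ψ : PSU 4 F 3 →* E} (hψ : Function.Injective ψ) : False := by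
  obtain ⟨M, hM⟩ := exists_isPModular' Nat.prime_three
  have : Fact (Nat.Prime 3) := ⟨Nat.prime_three⟩
  have : CharP F 3 := charP_of_card_eq_prime_pow (f := 2) hF
  have := Fintype.ofFinite (PSU 4 F 3)
  obtain ⟨ι, hι'⟩ := (FiniteField.isSquare_neg_one_iff (F := F)).2 (by rw [hF]; decide)
  have hι : ι * ι = (2 : ℕ) := by push_cast; linear_combination -hι' - three (F := F)
  obtain ⟨C, hC⟩ := exists_ctx' (Equiv.refl (Fin 4)) hι le_rfl (by decide) (val (F := F)) val_inj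
  obtain ⟨θ, hθ⟩ := exists_theta hι hF
  have L8c := @L8_comp _ _ ψ _ hM
  have f0 := fx_comp_one ψ hM
  have fne := @fx_comp_ne _ _ ψ _ hM hψ
  have f5 : ∀ g, g ^ 5 = 1 → fx ((ρE hM).comp ψ) g = 48 ∨ 68 ≤ fx ((ρE hM).comp ψ) g := fun g h => by
    obtain ⟨t, ht, -⟩ := exists_tor hM (ψ g) (N := 5) (by decide) (by rw [← map_pow, h, map_one])
    have := ht.d5
    rw [pow_one, ← fx_comp] at this
    omega
  generalize (ρE hM).comp ψ = ρ at *
  have hg : ∀ a, gd a = true → C.Good a := fun a h => by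
    obtain ⟨x, hx⟩ := rep_gd hι h
    exact (hC a x hx).1
  have hw : ∀ q, C.Good (wit q) := fun q => by
    obtain ⟨x, hx⟩ := rep hι (q := W.getD q (scc 4 1)) (by
      rcases lt_or_ge q W.length with h | h
      · rw [List.getD_eq_getElem _ _ h]
        exact List.all_eq_true.1 (Bool.and_eq_true_iff.1 c1).2 _ (List.getElem_mem h)
      · rw [List.getD_eq_default _ _ h]; decide +kernel)
    exact (hC _ x hx).1
  have h1 := c2
  simp only [Bool.and_eq_true, List.all_eq_true] at h1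
  obtain ⟨⟨⟨⟨⟨h1, h2⟩, h3⟩, h4⟩, h5⟩, -⟩ := h1
  obtain ⟨e1, e2, e3, e4, e5, -, -, e6, e7⟩ := c3
  obtain ⟨n1, n2, n3, n4, n5, n6, n7, n8⟩ := nE
  have gz := hg _ h3
  have gw : C.Good wc := e1 ▸ C.good_mul (hg _ h4) (hg _ h5)
  have gx := hC _ _ (hθ _ (by decide : dt 0x5120))
  have gy := hC _ _ (hθ _ (by decide : dt 0x6005))
  rw [← e4] at gx
  rw [← e5] at gy
  have gE' := fun s h => hg _ (h1 s h)
  have hr : ∀ a ∈ rQ, C.Good a := by simp [e6, C.good_one, gz, gw]
  have z1 : C.cl zc = C.cl wc ^ 2 := by rw [e2, (C.pw gw 2).2]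
  have z2 : C.cl zc ^ 2 = 1 := by rw [← (C.pw gz 2).2, e3, C.cl_one]
  have z3 : C.cl zc ≠ 1 := by
    obtain ⟨x, hx⟩ := rep_gd hι h3
    obtain ⟨y, hy⟩ := rep_gd hι (h2 (gQ.getD 3 0) (by decide))
    rw [(hC _ x hx).2]
    exact mk_ne_one _ hι le_rfl (by decide) _ hx hy 1 0 (by decide +kernel) (by decide +kernel)
  have l1 := L8c (g := C.cl wc) (by rw [show 8 = 2 * (2 * 2) from rfl, pow_mul, ← z1, pow_mul, z2, one_pow])
  have l2 := fne z3
  have s1 := C.cnt_rr ρ hw (fun s h => hg _ (h2 s h)) hr fQ jQ (by rw [n6]; decide) kQ n2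
  have s2 := C.cnt_rr ρ hw gE' hr fE jE (by rw [n5]; decide) kE n1
  rw [pow_mul _ 2 2, ← z1, z2, f0] at l1
  simp only [List.length_cons, List.length_nil, Finset.sum_range_succ, Finset.sum_range_zero, e6, n5, n6, rr,
    List.getD_cons_succ, List.getD_cons_zero, nsmul_eq_mul, C.cl_one, one_pow, ← z1, z2, f0] at s1 s2
  have l3 : fx ρ (C.cl zc) = 120 := by
    have := (by decide : ∀ l ∈ L8, l.getD 2 0 = 248 → l.getD 1 0 ≠ 248 → l.getD 1 0 = 120 ∨
      l.getD 1 0 = 136 ∧ l.getD 0 0 % 4 = 2) _ l1 rfl l2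
    simp only [List.getD_cons_succ, List.getD_cons_zero] at this
    omega
  have l4 : fxS ρ (C.S gE) = 8 := by omega
  obtain ⟨σ, hσ⟩ := exists_sub ρ (S := C.S gE) ((QuotientGroup.mk' _).comp θ) (gen4 hι hF
    ((Subgroup.normalizer _).comap _) fun c hc h => mem_normalizer_closure (by
      rintro _ ⟨s, hs, rfl⟩
      have h6 := c4
      simp only [List.all_eq_true, force_eq, List.any_eq_true, Nat.beq_eq] at h6
      obtain ⟨e, he, u, hu, h7⟩ := h6 c hc s hs
      have h8 := hC _ _ (hθ c h)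
      have h9 := C.mem gE' fE he
      have := C.cl_sc (C.good_mul h8.1 (gE' s hs)) (C.good_mul h9.1 h8.1) (by simp at hu; omega) h7
      rw [C.cl_mul h8.1 (gE' s hs), C.cl_mul h9.1 h8.1, h8.2] at this
      change (θ _ : PSU 4 F 3) * _ * (θ _ : PSU 4 F 3)⁻¹ ∈ _
      rw [this, mul_inv_cancel_right]
      exact h9.2))
  have hS : ∀ a gens, C.S (a :: gens) = insert (C.cl a.1) (C.S gens) := fun a gens => by
    ext; simp [Ctx.S, eq_comm]
  obtain ⟨a, c, ha, hc, R, hR, h⟩ := stein_fx σ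
  have f1 := fx_eq_of_orderOf σ (g := a) (h := g2 hι (by decide : dt 0x6005)) (by rw [ha, hF, order_y])
    (by rw [ha, hF]; decide) (by rw [ha, hF, ringChar.eq F 3]; decide) (by rw [ha, hF]; decide)
  have o1 : orderOf (c ^ 2) = 5 := by rw [orderOf_pow, hc, hF]; rfl
  have f2 := fx_eq_of_orderOf' σ (g := c ^ 2) (h := g2 hι (by decide : dt 0x5120)) (by rw [o1, order_x])
    (by rw [o1]; decide) (by rw [o1, ringChar.eq F 3]; decide) (by rw [o1, hF]; decide)
  have f3 := fx_le_pow σ c 2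
  have f4 : fx σ (c ^ 2) ≤ finrank (K hM) (fix ρ (C.S gE)) := Submodule.finrank_le _
  rw [hσ (g2 _ _)] at f1 f2
  change _ = fxS ρ (insert (θ _ : PSU 4 F 3) _) at f1 f2
  rw [← gy.2, ← hS (yc, _)] at f1
  rw [← gx.2, ← hS (xc, _)] at f2
  change _ = fxS ρ (C.S gY) at f1
  change _ = fxS ρ (C.S gX) at f2
  change _ ≤ fxS _ _ at hR f4
  obtain ⟨β, hβ⟩ := exists_brauer ρ
  have x5 : C.cl xc ^ 5 = 1 := by
    rw [gx.2, ← QuotientGroup.mk_pow, ← map_pow, ← order_x hι, pow_orderOf_eq_one, map_one]; rfl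
  have s3 := C.cnt_brauer ρ (gens := gX) (reps := rX) hw (List.forall_mem_cons.2 ⟨gx.1, gE'⟩)
    (by simp [e7, C.good_one, gz, (C.pw gx.1 _).1]) fX jX (by rw [n7]; decide) hβ kX n3
  have s4 := hβ.sum_pow (m := 5) (by decide) x5
  have s5 := hβ.sum_pow (m := 2) (by decide) z2
  have s6 := hβ.one
  rw [finrank_E] at s6
  simp only [List.length_cons, List.length_nil, Finset.sum_range_succ, Finset.sum_range_zero, e7, n7,
    List.getD_cons_succ, List.getD_cons_zero, nsmul_eq_mul, C.cl_one, (C.pw gx.1 _).2, pow_zero, pow_one, l3,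
    s6] at s3 s4 s5
  have s7 : (fxS ρ (C.S gX) + 48 : ℂ) = fx ρ (C.cl xc) := by
    push_cast at s3 s4 s5
    linear_combination (-s3 + 32 * s4 + 30 * s5) / 160
  have s8 : fxS ρ (C.S gX) + 48 = fx ρ (C.cl xc) := by exact_mod_cast s7
  have s9 := f5 _ x5
  have k1 := kY
  simp only [List.all_eq_true, Bool.and_eq_true, Bool.or_eq_true, beq_iff_eq, List.contains_iff_mem] at k1
  have gY' : ∀ s ∈ gY, C.Good s.1 := List.forall_mem_cons.2 ⟨gy.1, gE'⟩
  have s10 := C.sum_rr ρ gY' fY (by rw [n8]; decide) fun e he => (k1 e he).1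
  have s11 : (TY.map lb).sum ≤ (TY.map fun e => rr ρ (C.cl e.a)).sum := List.sum_le_sum fun e he => by
    have a1 := fx_of_isConj ρ (C.conj' hw gY' hr fY jY he)
    have a2 := L8c (C.exp (C.mem gY' fY he).1 (k1 e he).1)
    have a3 := (by decide : ∀ l ∈ L8, (l.getD 0 0 = 248 → l.getD 1 0 = 248) ∧ (l.getD 0 0 = 120 → l.getD 1 0 = 248) ∧
      (l.getD 1 0 = 120 → 60 ≤ l.getD 0 0) ∧ (l.getD 2 0 = 120 → l.getD 1 0 ≤ 2 * l.getD 0 0 + 4)) _ a2
    simp only [List.getD_cons_succ, List.getD_cons_zero] at a3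
    rw [rr, lb]
    rcases (k1 e he).2 with ⟨b, k⟩ | ⟨b, k⟩
    · simp only [b, k, e6, List.getD_cons_zero, C.cl_one, pow_one, f0] at a1
      rw [if_pos b]; omega
    · simp only [b, e6, List.getD_cons_zero, List.getD_cons_succ, l3] at a1
      simp only [List.mem_cons, List.not_mem_nil, or_false] at k
      rcases k with k | k | k <;> simp only [k, pow_one] at a1 <;> simp [b, k] <;> omega
  rw [hF] at h
  rw [n4, s10, n8] at s11
  omega

end CfsgLib.E83.U4
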